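import Cfsg.Agent.H523.DspRgd

/-!
# The standard apartment of a root group datum and the automorphisms

helper885 (S2484). `R` a root group datum, `cs'` the Coxeter system of its (B, N)-pair, `ch g` the chamber `g B`.

* `rgd_cs` : the root group datum with another Coxeter system;
* `δ_ch` : the Weyl distance of two chambers `a B`, `b B` with `a⁻¹ b ∈ N`;
* `fix_rg` : a type preserving automorphism fixing `B` and `g₀ B` maps every root group `X (sr o)` to itself;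
* `map_conj` : if the type preserving automorphism `τ` maps `g B` to `h B` and `D` is a nontrivial element of a root group of order
  two, centralised by `B`, then `τ (g D g⁻¹) = h D h⁻¹`.
-/

set_option autoImplicit false
set_option linter.unusedSectionVars false

namespace Cfsg.Agent.H885.Dsp

open CoxeterSystem Cfsg.Agent.ChevalleyStructure.CoxeterGeom Cfsg.Agent.Tits.Roots Cfsg.Agent.Tits.Core
  Cfsg.Agent.Tits.RootComb Cfsg.Agent.Nodes.Comb Cfsg.Agent.Nodes.Reps Cfsg.Agent.Nodes.BNOf Cfsg.Agent.Nodes.BNOf.RGD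
  Cfsg.Agent.FixBN Cfsg.Agent.Tits.OfBN Cfsg.Agent.Tits.OppRes Cfsg.Agent.LieExceptional.BNPairCore
  Cfsg.Agent.OddHalf.Table.AutBldg Cfsg.Agent.OddHalf.Table.AutRGD Cfsg.Agent.OddHalf.Table.AutNorm
  Cfsg.Agent.Tits.Core.Bldg Cfsg.Agent.UGT.U2.FOne Cfsg.Agent.Schreier.BNSch

section Change

variable {I : Type*} [Fintype I] [DecidableEq I] {M : CoxeterMatrix I} {W W' : Type*} [Group W] [Group W']
  (cs : CoxeterSystem M W) (cs' : CoxeterSystem M W') {A : I → I → ℤ} (h : IsCartan M A)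

theorem rep_word (ω : List I) : rep cs h (cs.wordProd ω) = rep cs' h (cs'.wordProd ω) := by
  induction ω with
  | nil => rw [wordProd_nil, wordProd_nil, map_one, map_one]
  | cons i ω ih => rw [wordProd_cons, wordProd_cons, map_mul, map_mul, ih, rep_simple, rep_simple]

theorem isRoot_cs {x : I → ℤ} (hx : IsRoot cs h x) : IsRoot cs' h x := by
  obtain ⟨w, i, rfl⟩ := hx
  obtain ⟨ω, rfl⟩ := cs.wordProd_surjective w
  exact ⟨cs'.wordProd ω, i, by rw [rep_word cs cs' h]⟩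

theorem isRoot_cs_iff {x : I → ℤ} : IsRoot cs h x ↔ IsRoot cs' h x :=
  ⟨isRoot_cs cs cs' h, isRoot_cs cs' cs h⟩

theorem btwn_cs_iff {x y z : I → ℤ} : Btwn cs h x y z ↔ Btwn cs' h x y z := by
  unfold Btwn
  rw [isRoot_cs_iff cs cs' h]

variable {cs h} {Y : Type*} [Group Y] {p : ℕ} {T : Subgroup Y} {n : I → Y} {X : (I → ℤ) → Subgroup Y}

/-- The root group datum with another Coxeter system. -/
theorem rgd_cs (R : RGD cs h p T n X) : RGD cs' h p T n X where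
  nsys := R.nsys
  conj i x hx := by
    have h1 := R.conj i x (isRoot_cs cs' cs h hx)
    rw [rep_simple] at h1 ⊢
    exact h1
  tor x hx := R.tor x (isRoot_cs cs' cs h hx)
  comm x y hx hy hxy hxy' a ha b hb := by
    have h1 := R.comm x y (isRoot_cs cs' cs h hx) (isRoot_cs cs' cs h hy) hxy hxy' a ha b hb
    have h2 : Nodes.Reps.btw cs h X x y ≤ Nodes.Reps.btw cs' h X x y := by
      unfold Nodes.Reps.btw
      refine iSup_le ?_
      rintro ⟨z, hz⟩
      exact le_btw_of ((btwn_cs_iff cs cs' h).1 hz)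
    exact h2 h1
  rk1 := R.rk1
  pgrp := R.pgrp
  notp := R.notp
  tcop := R.tcop

end Change

variable {I W Y : Type*} [Fintype I] [DecidableEq I] [Group W] [Group Y] {M : CoxeterMatrix I}
  {cs : CoxeterSystem M W} {A : I → I → ℤ} {h : IsCartan M A} {p : ℕ} {T : Subgroup Y} {n : I → Y}
  {X : (I → ℤ) → Subgroup Y} [Finite W]

variable (R : RGD cs h p T n X) (hgen : B cs h T X ⊔ NN cs R.nsys = ⊤)
  [hN : (((R.bnPair hgen).B ⊓ (R.bnPair hgen).N).subgroupOf (R.bnPair hgen).N).Normal]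
  (cs' : CoxeterSystem M (WP (R.bnPair hgen)))
  (hcs : ∀ i, cs'.simple i = QuotientGroup.mk
    (⟨(eS R hgen i : Y), (R.bnPair hgen).subset (eS R hgen i).2⟩ : (R.bnPair hgen).N))

/-- The chamber `g B`. -/
abbrev ch (g : Y) : Y ⧸ (R.bnPair hgen).B := QuotientGroup.mk g

/-- The generator `n i` in `N`. -/
def nn (i : I) : (R.bnPair hgen).N := ⟨n i, (R.bnPair hgen).subset ⟨i, rfl⟩⟩

include hcs in
theorem mk_nn (i : I) : (QuotientGroup.mk (nn R hgen i) : WP (R.bnPair hgen)) = cs'.simple i := (hcs i).symm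

include hcs in
/-- An element of `N` represents its class. -/
theorem rp_mk (g : (R.bnPair hgen).N) :
    Rp cs' (rgd_cs cs' R).nsys (QuotientGroup.mk g : WP (R.bnPair hgen)) (g : Y) := by
  have key : ∀ ω : List I, ∃ k : (R.bnPair hgen).N, (QuotientGroup.mk k : WP (R.bnPair hgen)) = cs'.wordProd ω ∧
      Rp cs' (rgd_cs cs' R).nsys (cs'.wordProd ω) (k : Y) := by
    intro ω
    induction ω with
    | nil => exact ⟨1, by rw [wordProd_nil]; rfl, by rw [wordProd_nil]; exact rp_one⟩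
    | cons i ω ih =>
      obtain ⟨k, h1, h2⟩ := ih
      refine ⟨nn R hgen i * k, ?_, ?_⟩
      · rw [QuotientGroup.mk_mul, h1, mk_nn R hgen cs' hcs, wordProd_cons]
      · rw [wordProd_cons]
        exact (rp_simple cs' (rgd_cs cs' R).nsys i).mul h2
  obtain ⟨ω, hω⟩ := cs'.wordProd_surjective (QuotientGroup.mk g)
  obtain ⟨k, h1, h2⟩ := key ω
  rw [hω] at h1 h2
  have h3 : (k : Y)⁻¹ * (g : Y) ∈ T := by
    rw [QuotientGroup.eq, Subgroup.mem_subgroupOf] at h1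
    exact (le_of_eq R.B_inf_NN) h1
  have h4 := h2.mul_mem_right h3
  rwa [mul_inv_cancel_left] at h4

/-- Weyl distances in an apartment. -/
theorem δ_ch {a b : Y} {m : (R.bnPair hgen).N} (e : a⁻¹ * b = m) :
    (Bl R hgen cs' hcs).δ (ch R hgen a) (ch R hgen b) = QuotientGroup.mk m := by
  rw [bldg_δ_mk]
  apply wt_of_mem
  rw [e]
  exact self_mem_C _

theorem ch_eq {a b : Y} : ch R hgen a = ch R hgen b ↔ a⁻¹ * b ∈ B cs h T X := QuotientGroup.eq

theorem smul_ch (a b : Y) : a • ch R hgen b = ch R hgen (a * b) := rfl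

theorem ch_mul {a b : Y} (hb : b ∈ B cs h T X) : ch R hgen (a * b) = ch R hgen a := by
  rw [eq_comm, ch_eq, inv_mul_cancel_left]
  exact hb

section Auto

variable [Finite Y] [Fact p.Prime] (S : Split (R.bnPair hgen) p (Sup X (Pos cs h)))

include S

variable {R hgen cs' hcs}

/-- A type preserving automorphism fixing `B` and `g₀ B` fixes the chambers of the apartment. -/
theorem fix_apt (t : Mv (Bl R hgen cs' hcs) Y) (hφ : ∀ w, t.φ w = w) {g₀ : (R.bnPair hgen).N}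
    (hg₀ : (QuotientGroup.mk g₀ : WP (R.bnPair hgen)) = w0 cs') (h1 : t.θ (ch R hgen 1) = ch R hgen 1)
    (h2 : t.θ (ch R hgen (g₀ : Y)) = ch R hgen (g₀ : Y)) (k : (R.bnPair hgen).N) :
    t.θ (ch R hgen (k : Y)) = ch R hgen (k : Y) := by
  have hI : Finite I := inferInstance
  have hW : Finite (WP (R.bnPair hgen)) := inferInstance
  have hC : Cox cs' := inferInstance
  have e1 : (Bl R hgen cs' hcs).δ (ch R hgen 1) (ch R hgen (k : Y)) = QuotientGroup.mk k :=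
    δ_ch R hgen cs' hcs (by rw [inv_one, one_mul])
  have e2 : (Bl R hgen cs' hcs).δ (ch R hgen (k : Y)) (ch R hgen (g₀ : Y)) = (QuotientGroup.mk k)⁻¹ * w0 cs' := by
    rw [← hg₀, ← QuotientGroup.mk_inv, ← QuotientGroup.mk_mul]
    exact δ_ch R hgen cs' hcs rfl
  have e3 : (Bl R hgen cs' hcs).δ (ch R hgen 1) (t.θ (ch R hgen (k : Y))) = QuotientGroup.mk k := by
    rw [← e1]
    conv_lhs => rw [← h1]
    rw [t.δ_θ, hφ]
  have e4 : (Bl R hgen cs' hcs).δ (t.θ (ch R hgen (k : Y))) (ch R hgen (g₀ : Y)) = (QuotientGroup.mk k)⁻¹ * w0 cs' := by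
    rw [← e2]
    conv_lhs => rw [← h2]
    rw [t.δ_θ, hφ]
  refine (Bl R hgen cs' hcs).between_unique ?_ e3 e4 e1 e2
  rw [mul_inv_cancel_left]
  have := hC.len_mul_w0 (QuotientGroup.mk k)⁻¹
  rw [cs'.length_inv] at this
  omega

/-- A type preserving automorphism fixing `B` and `g₀ B` maps the elements of `X (sr o)` into `X (sr o)`. -/
theorem fix_rg (t : Mv (Bl R hgen cs' hcs) Y) (hφ : ∀ w, t.φ w = w) {g₀ : (R.bnPair hgen).N}
    (hg₀ : (QuotientGroup.mk g₀ : WP (R.bnPair hgen)) = w0 cs') (h1 : t.θ (ch R hgen 1) = ch R hgen 1)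
    (h2 : t.θ (ch R hgen (g₀ : Y)) = ch R hgen (g₀ : Y)) {o : I} {x : Y} (hx : x ∈ X (sr o)) :
    t.τ x ∈ X (sr o) := by
  have hI : Finite I := inferInstance
  have hW : Finite (WP (R.bnPair hgen)) := inferInstance
  have hC : Cox cs' := inferInstance
  let k : (R.bnPair hgen).N := nn R hgen o * g₀
  have hk : t.θ (ch R hgen (k : Y)) = ch R hgen (k : Y) := fix_apt S t hφ hg₀ h1 h2 k
  have hrk := rp_mk R hgen cs' hcs k
  have hmk : (QuotientGroup.mk k : WP (R.bnPair hgen)) = cs'.simple o * w0 cs' := by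
    rw [← hg₀, ← mk_nn R hgen cs' hcs]
    rfl
  let Sy := FixBN.OfBN.sys (eS R hgen) cs' hcs S
  have hU : ∀ (g : Y) (u : Y), u ∈ Sy.U (ch R hgen g) ↔ g⁻¹ * u * g ∈ Sup X (Pos cs h) := fun g u =>
    FixBN.OfBN.mem_UU S
  -- `x` lies in the two unipotent groups
  have hx1 : x ∈ Sy.U (ch R hgen 1) := by
    rw [hU, inv_one, one_mul, mul_one]
    exact le_Sup (S := Pos cs h) ⟨isRoot_sr cs h o, sr_nonneg o⟩ hx
  have hx2 : x ∈ Sy.U (ch R hgen (k : Y)) := by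
    rw [hU]
    have h3 := (rgd_cs cs' R).conj_mem' hrk (isRoot_sr cs' h o) hx
    rw [hmk, mul_inv_rev, cs'.inv_simple, hC.w0_inv, rep_mul_apply, rep_simple_sr, map_neg] at h3
    refine le_Sup (S := Pos cs h) ⟨?_, ?_⟩ h3
    · exact isRoot_cs cs' cs h ((isRoot_sr cs' h o).act _).neg
    · have h4 : rep cs' h (w0 cs') (sr o) ≤ 0 := by
        refine nonpos_of_lt cs' h _ _ ?_
        have h5 := hC.len_w0_mul (cs'.simple o)
        rw [cs'.length_simple] at h5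
        omega
      exact neg_nonneg.2 h4
  have hy1 : t.τ x ∈ Sy.U (ch R hgen 1) := by
    have := t.τ_mem_U Sy hx1
    rwa [h1] at this
  have hy2 : t.τ x ∈ Sy.U (ch R hgen (k : Y)) := by
    have := t.τ_mem_U Sy hx2
    rwa [hk] at this
  rw [hU, inv_one, one_mul, mul_one, R.Upos_eq o] at hy1
  obtain ⟨a, ha, v, hv, hav⟩ : ∃ a ∈ X (sr o), ∃ v ∈ Sup X (PosNe cs h o), t.τ x = a * v := by
    have h3 : t.τ x ∈ ((X (sr o) ⊔ Sup X (PosNe cs h o) : Subgroup Y) : Set Y) := hy1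
    rw [Subgroup.coe_mul_of_left_le_normalizer_right _ _ (R.X_le_normalizer_V o), Set.mem_mul] at h3
    obtain ⟨a, ha, v, hv, e⟩ := h3
    exact ⟨a, ha, v, hv, e.symm⟩
  -- `v = 1`
  have ha2 : a ∈ Sy.U (ch R hgen (k : Y)) := by
    rw [hU]
    have h3 := (rgd_cs cs' R).conj_mem' hrk (isRoot_sr cs' h o) ha
    rw [hmk, mul_inv_rev, cs'.inv_simple, hC.w0_inv, rep_mul_apply, rep_simple_sr, map_neg] at h3
    refine le_Sup (S := Pos cs h) ⟨?_, ?_⟩ h3
    · exact isRoot_cs cs' cs h ((isRoot_sr cs' h o).act _).neg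
    · have h4 : rep cs' h (w0 cs') (sr o) ≤ 0 := by
        refine nonpos_of_lt cs' h _ _ ?_
        have h5 := hC.len_w0_mul (cs'.simple o)
        rw [cs'.length_simple] at h5
        omega
      exact neg_nonneg.2 h4
  have hv2 : v ∈ Sy.U (ch R hgen (k : Y)) := by
    have h3 : v = a⁻¹ * t.τ x := by rw [hav]; group
    rw [h3]
    exact mul_mem (inv_mem ha2) hy2
  have hv3 : (n o)⁻¹ * v * n o ∈ Sup X (PosNe cs h o) := by
    rw [← R.cj_n_V o] at hv
    exact mem_cj.1 hv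
  have hv4 : (n o)⁻¹ * v * n o = 1 := by
    refine Sy.free (ch R hgen 1) (ch R hgen (g₀ : Y)) (δ_d hcs hg₀) _ ?_ ?_
    · rw [hU, inv_one, one_mul, mul_one]
      exact Sup_mono (S := PosNe cs h o) (S' := Pos cs h) (fun z hz => ⟨hz.1, hz.2.1⟩) hv3
    · apply Sy.fix
      rw [hU] at hv2 ⊢
      have h3 : ((k : Y))⁻¹ * v * (k : Y) = (g₀ : Y)⁻¹ * ((n o)⁻¹ * v * n o) * g₀ := by
        show (n o * (g₀ : Y))⁻¹ * v * (n o * (g₀ : Y)) = _
        group
      rwa [h3] at hv2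
  have hv5 : v = 1 := by
    have h3 : v = n o * ((n o)⁻¹ * v * n o) * (n o)⁻¹ := by group
    rw [h3, hv4]
    group
  rw [hav, hv5, mul_one]
  exact ha

/-- The composition with inner automorphisms. -/
theorem exists_conj_mv (t : Mv (Bl R hgen cs' hcs) Y) (g k : Y) :
    ∃ t' : Mv (Bl R hgen cs' hcs) Y, (∀ x, t'.τ x = k⁻¹ * t.τ (g * x * g⁻¹) * k) ∧
      (∀ x, t'.θ x = k⁻¹ • t.θ (g • x)) ∧ t'.φ = t.φ ∧ t'.σ = t.σ := by
  let Sy := FixBN.OfBN.sys (eS R hgen) cs' hcs S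
  refine ⟨Mv.comp (Mv.inner Sy k⁻¹) (Mv.comp t (Mv.inner Sy g)), ?_, fun x => rfl, ?_, ?_⟩
  · intro x
    show k⁻¹ * t.τ (g * x * g⁻¹) * k⁻¹⁻¹ = _
    rw [inv_inv]
  · ext w
    rfl
  · rfl

/-- `B` centralises `D`. -/
theorem fix_D (t : Mv (Bl R hgen cs' hcs) Y) (hφ : ∀ w, t.φ w = w) (h1 : t.θ (ch R hgen 1) = ch R hgen 1)
    {o : I} {E : Y} (hE : E ∈ X (sr o)) (hE1 : E ≠ 1) (hE2 : ∀ x ∈ X (sr o), x = 1 ∨ x = E)
    {k : (R.bnPair hgen).N} {D : Y} (hD : D = (k : Y) * E * (k : Y)⁻¹) (hB : ∀ b ∈ B cs h T X, b * D = D * b) :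
    t.τ D = D := by
  have hI : Finite I := inferInstance
  have hW : Finite (WP (R.bnPair hgen)) := inferInstance
  have hC : Cox cs' := inferInstance
  let Sy := FixBN.OfBN.sys (eS R hgen) cs' hcs S
  have hU : ∀ (g : Y) (u : Y), u ∈ Sy.U (ch R hgen g) ↔ g⁻¹ * u * g ∈ Sup X (Pos cs h) := fun g u =>
    FixBN.OfBN.mem_UU S
  obtain ⟨g₀, hg₀⟩ := exists_g0 (R := R) (hgen := hgen) (cs' := cs')
  -- correct by an element of `U`
  obtain ⟨u, hu, hu2⟩ := Sy.trans (ch R hgen 1) (ch R hgen (g₀ : Y)) (t.θ (ch R hgen (g₀ : Y))) (δ_d hcs hg₀) (by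
    show (Bl R hgen cs' hcs).δ _ _ = w0 cs'
    conv_lhs => rw [← h1]
    rw [t.δ_θ, hφ]
    exact δ_d hcs hg₀)
  rw [hU, inv_one, one_mul, mul_one] at hu
  have huB : u ∈ B cs h T X := U_le_B hu
  obtain ⟨t₁, ht₁, ht₁', hφ₁, -⟩ := exists_conj_mv S t 1 u
  have hφ1 : ∀ w, t₁.φ w = w := fun w => by rw [hφ₁]; exact hφ w
  have a1 : t₁.θ (ch R hgen 1) = ch R hgen 1 := by
    rw [ht₁', one_smul, h1, smul_ch, mul_one, eq_comm, ch_eq, inv_one, one_mul]
    exact inv_mem huB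
  have a2 : t₁.θ (ch R hgen (g₀ : Y)) = ch R hgen (g₀ : Y) := by
    rw [ht₁', one_smul, ← hu2, inv_smul_smul]
  -- conjugate by `k`
  obtain ⟨t₂, ht₂, ht₂', hφ₂, -⟩ := exists_conj_mv S t₁ (k : Y) (k : Y)
  have hφ2 : ∀ w, t₂.φ w = w := fun w => by rw [hφ₂]; exact hφ1 w
  have a3 : ∀ m : (R.bnPair hgen).N, t₂.θ (ch R hgen (m : Y)) = ch R hgen (m : Y) := by
    intro m
    rw [ht₂', smul_ch]
    have h3 := fix_apt S t₁ hφ1 hg₀ a1 a2 (k * m)
    rw [Subgroup.coe_mul] at h3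
    rw [h3, smul_ch, inv_mul_cancel_left]
  have h3 := fix_rg S t₂ hφ2 hg₀ (a3 1) (a3 g₀) hE
  have h4 : t₂.τ E = E := by
    rcases hE2 _ h3 with h5 | h5
    · exact absurd (t₂.τ.map_eq_one_iff.1 h5) hE1
    · exact h5
  rw [ht₂, ← hD, ht₁, one_mul, inv_one, mul_one] at h4
  have h5 : u⁻¹ * t.τ D * u = D := by
    rw [hD]
    conv_rhs => rw [← h4]
    rw [hD]
    group
  have h6 : t.τ D = u * D * u⁻¹ := by
    calc t.τ D = u * (u⁻¹ * t.τ D * u) * u⁻¹ := by group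
      _ = u * D * u⁻¹ := by rw [h5]
  rw [h6, hB u huB]
  group

/-- **Images of `D`.** -/
theorem map_conj (t : Mv (Bl R hgen cs' hcs) Y) (hφ : ∀ w, t.φ w = w) {g k : Y} (h1 : t.θ (ch R hgen g) = ch R hgen k)
    {o : I} {E : Y} (hE : E ∈ X (sr o)) (hE1 : E ≠ 1) (hE2 : ∀ x ∈ X (sr o), x = 1 ∨ x = E)
    {m : (R.bnPair hgen).N} {D : Y} (hD : D = (m : Y) * E * (m : Y)⁻¹) (hB : ∀ b ∈ B cs h T X, b * D = D * b) :
    t.τ (g * D * g⁻¹) = k * D * k⁻¹ := by
  obtain ⟨t', h2, h3, h4, -⟩ := exists_conj_mv S t g k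
  have h5 : t'.θ (ch R hgen 1) = ch R hgen 1 := by
    rw [h3, smul_ch, mul_one, h1, smul_ch, inv_mul_cancel]
  have h6 := fix_D S t' (fun w => by rw [h4]; exact hφ w) h5 hE hE1 hE2 hD hB
  rw [h2] at h6
  calc t.τ (g * D * g⁻¹) = k * (k⁻¹ * t.τ (g * D * g⁻¹) * k) * k⁻¹ := by group
    _ = k * D * k⁻¹ := by rw [h6]

end Auto

end Cfsg.Agent.H885.Dsp
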