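import Cfsg.Agent.H523.Dsp

/-!
# Maximal displacement: projections of the panels

helper885 (S2484). `x` a chamber with maximal displacement `w = δ(x, θ x)`, `s₀` a descent of `w`, `a` the projection of
`θ x` on the `0`-panel of `x`, `b` the projection of `x` on the `0`-panel of `θ x`.

* `proj_eq` : `θ a = b`, if `w` has suitable neighbours `i`, `j` of the node `0`;
* `res_step` : for an ascent `j` of `w` commuting with `w` the `j`-panel of `x` is mapped by `θ` as by the projection.
-/

set_option autoImplicit false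
set_option linter.unusedSectionVars false

namespace Cfsg.Agent.H885.Dsp

open Cfsg.Agent.Tits.Core Cfsg.Agent.Tits.Core.Bldg Cfsg.Agent.Tits.Exchange Cfsg.Agent.Tits
open Cfsg.Agent.FixBN Cfsg.Agent.FixBN.Cox Cfsg.Agent.UGT.U2.FOne Cfsg.Agent.H523.Dsp

variable {I : Type*} {M : CoxeterMatrix I} {W : Type*} [Group W] {cs : CoxeterSystem M W} {C : Type*}
  {Δ : Bldg cs C}

local prefix:100 "ℓ" => cs.length

variable {θ : C → C}

/-- **The projections correspond.** -/
theorem proj_eq (hth : Δ.Thick) (hθ : ∀ x y, Δ.δ (θ x) (θ y) = Δ.δ x y) {x : C} {w : W} (hw : Δ.δ x (θ x) = w)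
    (hmax : ∀ y, ℓ (Δ.δ y (θ y)) ≤ ℓ w) {o i j : I}
    (h0 : ℓ (cs.simple o * w) < ℓ w) (h0' : ℓ (cs.simple o * w * cs.simple o) < ℓ (cs.simple o * w))
    (h1 : ℓ (cs.simple i * (cs.simple o * w)) < ℓ (cs.simple o * w))
    (h2 : ℓ (cs.simple o * w) < ℓ (cs.simple o * w * cs.simple i))
    (h3 : ℓ (cs.simple o * w * cs.simple i) < ℓ (cs.simple o * w * cs.simple i * cs.simple j))
    (h4 : cs.simple j * (cs.simple o * w * cs.simple i) ≠ cs.simple o * w * cs.simple i * cs.simple j)
    {a b : C} (ha : Δ.δ x a = cs.simple o) (ha' : Δ.δ a (θ x) = cs.simple o * w)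
    (hb : Δ.δ (θ x) b = cs.simple o) (hb' : Δ.δ x b = w * cs.simple o) : θ a = b := by
  have haa : Δ.δ (θ x) (θ a) = cs.simple o := by rw [hθ, ha]
  have hlen : ℓ (cs.simple o * w) + 1 = ℓ w := by
    rcases cs.length_simple_mul w o with h | h <;> omega
  have hlen2 : ℓ (cs.simple o * w * cs.simple o) + 1 = ℓ (cs.simple o * w) := by
    rcases cs.length_mul_simple (cs.simple o * w) o with h | h <;> omega
  have ecan : cs.simple o * (cs.simple o * w * cs.simple o) = w * cs.simple o := by
    rw [mul_assoc (cs.simple o) w, cs.simple_mul_simple_cancel_left]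
  have hlen3 : ℓ (w * cs.simple o) + 1 = ℓ w := by
    have e2 := cs.length_simple_mul (cs.simple o * w * cs.simple o) o
    rw [ecan] at e2
    have e3 := cs.length_mul_simple w o
    omega
  rcases Δ.step a (θ x) (θ a) _ haa with h5 | h5
  · -- `δ (a, θ a) = s₀ w s₀`
    rw [ha'] at h5
    have h6 : Δ.δ x (θ a) = w * cs.simple o := by
      rw [Δ.step_lt_left ha (z := θ a) (by rw [h5, ecan]; omega), h5, ecan]
    exact eq_of_near (by omega) h6 hb' (Δ.δ_symm_simple haa) (Δ.δ_symm_simple hb)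
  · -- `δ (a, θ a) = s₀ w`
    exfalso
    rw [ha'] at h5
    obtain ⟨p₁, p₂, hp, hp₁, hp₂⟩ := hth a i
    have key : ∃ p, Δ.δ a p = cs.simple i ∧ Δ.δ p (θ a) = cs.simple o * w := by
      by_contra hcon
      push Not at hcon
      have h6 : ∀ p, Δ.δ a p = cs.simple i → Δ.δ p (θ a) = cs.simple i * (cs.simple o * w) := by
        intro p hp
        rcases Δ.step_left (z := θ a) (Δ.δ_symm_simple hp) with h7 | h7
        · rw [h5] at h7
          exact h7
        · rw [h5] at h7
          exact absurd h7 (hcon p hp)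
      apply hp
      have h7 : ℓ (cs.simple i * (cs.simple i * (cs.simple o * w))) =
          ℓ (cs.simple i) + ℓ (cs.simple i * (cs.simple o * w)) := by
        rw [cs.simple_mul_simple_cancel_left, cs.length_simple]
        rcases cs.length_simple_mul (cs.simple o * w) i with h | h <;> omega
      exact Δ.between_unique h7 (x := a) (z := θ a) hp₁ (h6 _ hp₁) hp₂ (h6 _ hp₂)
    obtain ⟨p, hap, hpp⟩ := key
    have h6 : Δ.δ p (θ p) = cs.simple o * w * cs.simple i := by
      rw [Δ.step_lt p (θ a) (θ p) i (by rw [hθ, hap]) (by rw [hpp]; exact h2), hpp]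
    have h7 : ℓ (cs.simple o * w * cs.simple i) = ℓ w := by
      rcases cs.length_mul_simple (cs.simple o * w) i with h | h <;> omega
    apply h4
    have h8 := max_right (Δ := Δ) (θ := θ) (φ := MulEquiv.refl W) (σ := id) hth (fun _ => rfl)
      (fun x y => by rw [hθ]; rfl) (x := p) (fun y => by rw [h6, h7]; exact hmax y) j (by rw [h6]; exact h3)
    rw [h6] at h8
    exact h8

/-- **The panels of the ascents.** -/
theorem res_step (hθ : ∀ x y, Δ.δ (θ x) (θ y) = Δ.δ x y) {x : C} {w : W} (hw : Δ.δ x (θ x) = w)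
    (hmax : ∀ y, ℓ (Δ.δ y (θ y)) ≤ ℓ w) {j : I} (hj : cs.simple j * w = w * cs.simple j)
    (hj' : ℓ w < ℓ (cs.simple j * w)) {z z' : C} (hz : Δ.δ x z = cs.simple j) (hz' : Δ.δ (θ x) z' = cs.simple j)
    (hzz : Δ.δ z z' = w) : θ z = z' := by
  have h1 : Δ.δ z (θ x) = cs.simple j * w := by
    rw [Δ.step_lt_left (Δ.δ_symm_simple hz) (z := θ x) (by rw [hw]; exact hj'), hw]
  have h2 : Δ.δ (θ x) (θ z) = cs.simple j := by rw [hθ, hz]
  have h3 : Δ.δ z (θ z) = w := by
    rcases Δ.step z (θ x) (θ z) _ h2 with h4 | h4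
    · rw [h4, h1, hj, cs.simple_mul_simple_cancel_right]
    · exfalso
      have h5 := hmax z
      rw [h4, h1] at h5
      omega
  have h4 : cs.simple j * w * cs.simple j = w := by rw [hj, cs.simple_mul_simple_cancel_right]
  exact eq_of_near (w := cs.simple j * w) (by rw [h4]; exact hj') (by rw [h3, h4]) (by rw [hzz, h4])
    (Δ.δ_symm_simple h2) (Δ.δ_symm_simple hz')

end Cfsg.Agent.H885.Dsp
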