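import Cfsg.Agent.H885.Dsp.NoPolar

/-!
# The size of the classes of automorphisms: the data of a chamber with maximal displacement

helper885 (S2484). `exists_dat` : the chamber of maximal displacement; `of_path` : the bound by a path.
-/

set_option autoImplicit false
set_option linter.unusedSectionVars false

namespace Cfsg.Agent.H885.Dsp

open CoxeterSystem Cfsg.Agent.ChevalleyStructure.CoxeterGeom Cfsg.Agent.Tits.Roots Cfsg.Agent.Tits.Core
  Cfsg.Agent.Tits.RootComb Cfsg.Agent.Nodes.Comb Cfsg.Agent.Nodes.Reps Cfsg.Agent.Nodes.BNOf Cfsg.Agent.Nodes.BNOf.RGD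
  Cfsg.Agent.FixBN Cfsg.Agent.Tits.OfBN Cfsg.Agent.Tits.OppRes Cfsg.Agent.LieExceptional.BNPairCore
  Cfsg.Agent.OddHalf.Table.AutBldg Cfsg.Agent.OddHalf.Table.AutRGD Cfsg.Agent.OddHalf.Table.AutNorm
  Cfsg.Agent.Tits.Exchange Cfsg.Agent.H612.WModel Cfsg.Agent.H81.PJSum Cfsg.Agent.H523.Dsp Cfsg.Agent.Tits.Core.Bldg
  Cfsg.Agent.H905.DC Cfsg.Agent.UGT.U2.FOne Cfsg.Agent.Nodes.RGDLib Cfsg.Agent.Tits Cfsg.Agent.H523.DspRgd
  Cfsg.Agent.Schreier.BNSch

universe v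

variable {I W : Type*} {Y : Type v} [Fintype I] [DecidableEq I] [Group W] [Group Y] {M : CoxeterMatrix I}
  {cs : CoxeterSystem M W} {A : I → I → ℤ} {h : IsCartan M A} {p : ℕ} {T : Subgroup Y} {n : I → Y}
  {X : (I → ℤ) → Subgroup Y} [Finite W] (R : RGD cs h p T n X)

/-- **The data of a chamber with maximal displacement.** -/
structure Dat (hgen : B cs h T X ⊔ NN cs R.nsys = ⊤)
    [hN : (((R.bnPair hgen).B ⊓ (R.bnPair hgen).N).subgroupOf (R.bnPair hgen).N).Normal]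
    (cs' : CoxeterSystem M (WP (R.bnPair hgen)))
    (hcs : ∀ i, cs'.simple i = QuotientGroup.mk
      (⟨(eS R hgen i : Y), (R.bnPair hgen).subset (eS R hgen i).2⟩ : (R.bnPair hgen).N))
    (τ : MulAut Y) (t : Mv (Bl R hgen cs' hcs) Y) (x : Y ⧸ (R.bnPair hgen).B) (J : Set I)
    (w : WP (R.bnPair hgen)) : Prop where
  S : Split (R.bnPair hgen) p (Sup X (Pos cs h))
  τ_eq : t.τ = τ
  δ_eq : (Bl R hgen cs' hcs).δ x (t.θ x) = w
  ne : J ≠ Set.univ
  e1 : wJ cs' J * w = w0 cs'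
  e2 : cs'.length (wJ cs' J) + cs'.length w = cs'.length (w0 cs')
  e3 : ∀ i ∈ J, cs'.simple i * w = w * cs'.simple (t.σ i)
  e4 : ∀ i ∈ J, cs'.length w < cs'.length (cs'.simple i * w)
  e5 : ∀ i, i ∉ J → cs'.length (w * cs'.simple (t.σ i)) < cs'.length w
  max : ∀ y, cs'.length ((Bl R hgen cs' hcs).δ y (t.θ y)) ≤ cs'.length w
  M_σ : ∀ i j, M (t.σ i) (t.σ j) = M i j
  σ_iter : ∀ n : ℕ, τ ^ n = 1 → ∀ i, t.σ^[n] i = i

include R in
theorem exists_dat [Finite Y] [IsSimpleGroup Y] [Fact p.Prime] [Nonempty I] (hG : G1 cs h X = ⊤)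
    (τ : MulAut Y) (hτ : τ ≠ 1) :
    ∃ (hgen : B cs h T X ⊔ NN cs R.nsys = ⊤)
      (hN : (((R.bnPair hgen).B ⊓ (R.bnPair hgen).N).subgroupOf (R.bnPair hgen).N).Normal)
      (cs' : CoxeterSystem M (WP (R.bnPair hgen)))
      (hcs : ∀ i, cs'.simple i = QuotientGroup.mk
        (⟨(eS R hgen i : Y), (R.bnPair hgen).subset (eS R hgen i).2⟩ : (R.bnPair hgen).N))
      (t : Mv (Bl R hgen cs' hcs) Y) (x : Y ⧸ (R.bnPair hgen).B) (J : Set I) (w : WP (R.bnPair hgen)),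
      Dat R hgen cs' hcs τ t x J w := by
  have hgen := rgd_gen_of_G1 R hG
  have hne : ((R.bnPair hgen).S).Nonempty := ⟨_, ((eS R hgen) (Classical.arbitrary I)).2⟩
  have hcore := normalCore_eq_bot (R.bnPair hgen) hne
  obtain ⟨hN', cs', hcs, hfin, hS⟩ := exists_setup R hgen hcore
  have hth := Tits.OfBN.thick (R.bnPair hgen) (eS R hgen) cs' hcs
  have S := FixBN.OfBN.sys (eS R hgen) cs' hcs hS
  obtain ⟨t, ht⟩ := exists_mv hS (eS R hgen) cs' hcs τ
  have hC : Cfsg.Agent.Tits.OppRes.Cox cs' := inferInstance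
  have hSA := strongAct (R.bnPair hgen) (eS R hgen) cs' hcs hcore
  have hfaith := hSA.faithful
  have hnc : Nonempty (Y ⧸ (R.bnPair hgen).B) := ⟨QuotientGroup.mk 1⟩
  have hmove : ∃ x, t.θ x ≠ x := by
    by_contra hcon
    push Not at hcon
    apply hτ
    ext g
    have h1 : ∀ x : Y ⧸ (R.bnPair hgen).B, τ g • x = g • x := by
      intro x
      have h2 := t.θ_smul g x
      rw [hcon, hcon, ht] at h2
      exact h2.symm
    exact hfaith.eq_of_smul_eq_smul h1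
  obtain ⟨x, J, hJ, e1, e2, e3, e4, e5, e6⟩ := exists_max hth t.φ_simple t.δ_θ hmove
  have hM : ∀ i j, M (t.σ i) (t.σ j) = M i j := by
    intro i j
    rw [← LieRecognition.CoxForm.orderOf_eq cs', ← LieRecognition.CoxForm.orderOf_eq cs', ← t.φ_simple, ← t.φ_simple,
      ← map_mul]
    exact t.φ.orderOf_eq _
  have hσ : ∀ n : ℕ, τ ^ n = 1 → ∀ i, t.σ^[n] i = i := by
    intro n hn i
    obtain ⟨t', h1, h2, h3⟩ := exists_iter t n
    have h4 : ∀ g, t'.τ g = (Mv.one (bldg (R.bnPair hgen) (eS R hgen) cs' hcs) Y).τ g := by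
      intro g
      have h5 : t'.τ = 1 := by rw [h1, ht, hn]
      rw [h5]
      rfl
    have h5 := Mv.θ_eq S hth h4
    have h6 : ∀ w : WP (R.bnPair hgen), t'.φ w = w := by
      intro w
      obtain ⟨y, rfl⟩ := (bldg (R.bnPair hgen) (eS R hgen) cs' hcs).exists_δ x w
      rw [← t'.δ_θ, h5, h5]
      rfl
    apply hC.inj
    rw [← h2, ← t'.φ_simple, h6]
  exact ⟨hgen, hN', cs', hcs, t, x, J, _, ⟨hS, ht, rfl, hJ, e1, e2, e3, e4, e5, e6, hM, hσ⟩⟩

variable {R} {hgen : B cs h T X ⊔ NN cs R.nsys = ⊤}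
  [hN : (((R.bnPair hgen).B ⊓ (R.bnPair hgen).N).subgroupOf (R.bnPair hgen).N).Normal]
  {cs' : CoxeterSystem M (WP (R.bnPair hgen))}
  {hcs : ∀ i, cs'.simple i = QuotientGroup.mk
    (⟨(eS R hgen i : Y), (R.bnPair hgen).subset (eS R hgen i).2⟩ : (R.bnPair hgen).N)}
  [Finite Y] [Fact p.Prime] {τ : MulAut Y} {t : Mv (Bl R hgen cs' hcs) Y} {x : Y ⧸ (R.bnPair hgen).B} {J : Set I}
  {w : WP (R.bnPair hgen)}

theorem Dat.card_param (R : RGD cs h p T n X) (hgen : B cs h T X ⊔ NN cs R.nsys = ⊤)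
    [hN : (((R.bnPair hgen).B ⊓ (R.bnPair hgen).N).subgroupOf (R.bnPair hgen).N).Normal]
    (cs' : CoxeterSystem M (WP (R.bnPair hgen)))
    (hcs : ∀ i, cs'.simple i = QuotientGroup.mk
      (⟨(eS R hgen i : Y), (R.bnPair hgen).subset (eS R hgen i).2⟩ : (R.bnPair hgen).N)) (i : I) :
    (Bl R hgen cs' hcs).Param i (Nat.card ↥(X (sr i))) := fun x =>
  Cfsg.Agent.OddHalf.NI.FTwo.IdentRgd.card_pan R hgen cs' hcs i x

/-- the bound by the sphere of radius `w` -/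
theorem Dat.sphere_le (d : Dat R hgen cs' hcs τ t x J w) {ω : List I} (hω : cs'.IsReduced ω)
    (hm : IsMinL cs' J (cs'.wordProd ω)) :
    (ω.map fun i => Nat.card ↥(X (sr i))).prod ≤ Nat.card {z // (Bl R hgen cs' hcs).δ x z = w} := by
  have hI : Finite I := inferInstance
  have hW : Finite (WP (R.bnPair hgen)) := inferInstance
  have hC : Cox cs' := inferInstance
  exact prod_le_sphere (Dat.card_param R hgen cs' hcs) (fun i => Nat.card_pos) x d.e1 d.e2 hω hm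

theorem Dat.card_le (d : Dat R hgen cs' hcs τ t x J w) :
    Nat.card {z // (Bl R hgen cs' hcs).δ x z = w} ≤ (fix τ).index := by
  have hI : Finite I := inferInstance
  have hW : Finite (WP (R.bnPair hgen)) := inferInstance
  have hC : Cox cs' := inferInstance
  have S := FixBN.OfBN.sys (eS R hgen) cs' hcs d.S
  have h4 := card_sphere_le S t x
  rw [d.τ_eq] at h4
  rw [← d.δ_eq]
  exact h4

theorem Dat.path (d : Dat R hgen cs' hcs τ t x J w) {l : I → ℤ} (h0 : ∀ i, 0 ≤ l i) (hl : ∀ k ∈ J, l k = 0)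
    {ω : List I} (hp : Path A l ω) :
    (ω.map fun i => Nat.card ↥(X (sr i))).prod ≤ Nat.card {z // (Bl R hgen cs' hcs).δ x z = w} := by
  obtain ⟨h3, h4⟩ := Path.one cs' h h0 hp
  exact d.sphere_le h4 fun u hu => h3 u (WJ_mono cs' hl hu)

theorem Dat.of_path (d : Dat R hgen cs' hcs τ t x J w) {l : I → ℤ} (h0 : ∀ i, 0 ≤ l i) (hl : ∀ k ∈ J, l k = 0)
    {N : ℕ} (hN : ∃ ω : List I, Path A l ω ∧ N ≤ (ω.map fun i => Nat.card ↥(X (sr i))).prod) : N ≤ (fix τ).index := by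
  obtain ⟨ω, h1, h2⟩ := hN
  exact h2.trans ((d.path h0 hl h1).trans d.card_le)

/-- one node outside of `J` -/
theorem Dat.of_one (d : Dat R hgen cs' hcs τ t x J w) {i : I} (hi : i ∉ J)
    {N : ℕ} (hN : ∃ ω : List I, Path A (Pi.single i 1) ω ∧ N ≤ (ω.map fun i => Nat.card ↥(X (sr i))).prod) :
    N ≤ (fix τ).index := by
  refine d.of_path (fun k => ?_) (fun k hk => ?_) hN
  · rw [Pi.single_apply]; split_ifs <;> norm_num
  · have hki : k ≠ i := fun e => hi (e ▸ hk)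
    rw [Pi.single_apply, if_neg hki]

/-- two nodes outside of `J` -/
theorem Dat.of_two (d : Dat R hgen cs' hcs τ t x J w) {i j : I} (hi : i ∉ J) (hj : j ∉ J)
    {N : ℕ} (hN : ∃ ω : List I, Path A (Pi.single i 1 + Pi.single j 1) ω ∧
      N ≤ (ω.map fun i => Nat.card ↥(X (sr i))).prod) :
    N ≤ (fix τ).index := by
  refine d.of_path (fun k => ?_) (fun k hk => ?_) hN
  · rw [Pi.add_apply, Pi.single_apply, Pi.single_apply]; split_ifs <;> norm_num
  · have hki : k ≠ i := fun e => hi (e ▸ hk)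
    have hkj : k ≠ j := fun e => hj (e ▸ hk)
    rw [Pi.add_apply, Pi.single_apply, Pi.single_apply, if_neg hki, if_neg hkj, add_zero]

/-- a type preserving automorphism acts trivially on the Weyl group -/
theorem Dat.φ_id (t : Mv (Bl R hgen cs' hcs) Y) (hσ : ∀ i, t.σ i = i) (v : WP (R.bnPair hgen)) : t.φ v = v := by
  obtain ⟨ω, rfl⟩ : ∃ ω, cs'.wordProd ω = v := cs'.wordProd_surjective v
  induction ω with
  | nil => rw [wordProd_nil, map_one]
  | cons i ω ih => rw [wordProd_cons, map_mul, ih, t.φ_simple, hσ]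

/-- the exclusion of `J = {i₀}ᶜ` by divisibility -/
theorem Dat.excl (d : Dat R hgen cs' hcs τ t x J w) (hσ : ∀ i, t.σ i = i) {i₀ : I} {m : ℤ}
    (hm : 3 ≤ m) (hz : ∀ z : I → ℤ, (∀ j, j ≠ i₀ → ∑ k, A j k * z k = 0) → m ∣ z i₀) (hJ : J = {i₀}ᶜ) : False := by
  subst hJ
  have hi : i₀ ∉ ({i₀}ᶜ : Set I) := fun e => e rfl
  exact Cfsg.Agent.H523.DspRgd.excl cs' h hm hz d.e1 (fun j hj => by have := d.e3 j hj; rwa [hσ] at this) (fun j hj => d.e4 j hj)
    (by have := d.e5 i₀ hi; rwa [hσ] at this)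

/-- the exclusion of `J = {o}ᶜ`, `o` the polar node -/
theorem Dat.polar (d : Dat R hgen cs' hcs τ t x J w) (hσ : ∀ i, t.σ i = i) (h3 : τ ^ 3 = 1) {o i j : I} {ρ : I → ℤ}
    {ωJ : List I} (hP : PRoots cs' h o i j ρ ωJ) (hc : Nat.card ↥(X (sr o)) = 2)
    (hcent : ∀ D ∈ X ρ, D ≠ 1 → ∀ b ∈ B cs h T X, b * D = D * b) (hJ : J = {o}ᶜ) : False := by
  subst hJ
  have hi : o ∉ ({o}ᶜ : Set I) := fun e => e rfl
  obtain ⟨E, hE, hE1, hE2⟩ : ∃ E : Y, E ∈ X (sr o) ∧ E ≠ 1 ∧ ∀ x ∈ X (sr o), x = 1 ∨ x = E := by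
    have hnt : Nontrivial ↥(X (sr o)) := Finite.one_lt_card_iff_nontrivial.1 (by rw [hc]; norm_num)
    obtain ⟨⟨E, hE⟩, hE1⟩ := exists_ne (1 : ↥(X (sr o)))
    have hE1' : E ≠ 1 := fun e => hE1 (Subtype.ext e)
    refine ⟨E, hE, hE1', fun y hy => ?_⟩
    by_contra hcon
    push Not at hcon
    have h1 : Function.Injective (fun k : Fin 3 => (![1, ⟨E, hE⟩, ⟨y, hy⟩] k : ↥(X (sr o)))) := by
      have a1 : (1 : ↥(X (sr o))) ≠ ⟨E, hE⟩ := fun e => hE1 e.symm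
      have a2 : (1 : ↥(X (sr o))) ≠ ⟨y, hy⟩ := fun e => hcon.1 (congrArg Subtype.val e).symm
      have a3 : (⟨E, hE⟩ : ↥(X (sr o))) ≠ ⟨y, hy⟩ := fun e => hcon.2 (congrArg Subtype.val e).symm
      intro a b hab
      fin_cases a <;> fin_cases b <;> first | rfl | (exfalso; simp at hab; tauto)
    have h2 := Nat.card_le_card_of_injective _ h1
    rw [hc, Nat.card_eq_fintype_card, Fintype.card_fin] at h2
    omega
  refine no_polar d.S hP hE hE1 hE2 hcent t (Dat.φ_id t hσ) (fun y => ?_) d.δ_eq d.max d.e1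
    (fun k hk => by have := d.e3 k hk; rwa [hσ] at this) (fun k hk => d.e4 k hk)
    (by have := d.e5 o hi; rwa [hσ] at this)
  have h4 : (τ ^ 3) y = y := by rw [h3]; rfl
  rw [d.τ_eq]
  exact h4

end Cfsg.Agent.H885.Dsp
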