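import Cfsg.Agent.H885.Dsp.PolarEnd

/-!
# The maximal displacement of an automorphism of order three is not the one of the polar node (wrapper)

helper885 (S2484).
* `to_base` : conjugate an automorphism such that `x = B` and `θ x = n_w B`;
* `no_polar`.
-/

set_option autoImplicit false
set_option linter.unusedSectionVars false

namespace Cfsg.Agent.H885.Dsp

open CoxeterSystem Cfsg.Agent.ChevalleyStructure.CoxeterGeom Cfsg.Agent.Tits.Roots Cfsg.Agent.Tits.Core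
  Cfsg.Agent.Tits.RootComb Cfsg.Agent.Nodes.Comb Cfsg.Agent.Nodes.Reps Cfsg.Agent.Nodes.BNOf Cfsg.Agent.Nodes.BNOf.RGD
  Cfsg.Agent.FixBN Cfsg.Agent.Tits.OfBN Cfsg.Agent.Tits.OppRes Cfsg.Agent.LieExceptional.BNPairCore
  Cfsg.Agent.OddHalf.Table.AutBldg Cfsg.Agent.OddHalf.Table.AutRGD Cfsg.Agent.OddHalf.Table.AutNorm
  Cfsg.Agent.Tits.Core.Bldg Cfsg.Agent.UGT.U2.FOne Cfsg.Agent.Schreier.BNSch
  Cfsg.Agent.OddHalf.NI.FTwo.IdentRgd

variable {I W Y : Type*} [Fintype I] [DecidableEq I] [Group W] [Group Y] {M : CoxeterMatrix I}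
  {cs : CoxeterSystem M W} {A : I → I → ℤ} {h : IsCartan M A} {p : ℕ} {T : Subgroup Y} {n : I → Y}
  {X : (I → ℤ) → Subgroup Y} [Finite W]

variable {R : RGD cs h p T n X} {hgen : B cs h T X ⊔ NN cs R.nsys = ⊤}
  [hN : (((R.bnPair hgen).B ⊓ (R.bnPair hgen).N).subgroupOf (R.bnPair hgen).N).Normal]
  {cs' : CoxeterSystem M (WP (R.bnPair hgen))}
  {hcs : ∀ i, cs'.simple i = QuotientGroup.mk
    (⟨(eS R hgen i : Y), (R.bnPair hgen).subset (eS R hgen i).2⟩ : (R.bnPair hgen).N)}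
  [Finite Y] [Fact p.Prime]

/-- Move a chamber and its image to `B` and `n_w B`. -/
theorem to_base (S : Split (R.bnPair hgen) p (Sup X (Pos cs h))) (t : Mv (Bl R hgen cs' hcs) Y)
    (hφ : ∀ v, t.φ v = v) (x : Y ⧸ (R.bnPair hgen).B) (nw : (R.bnPair hgen).N)
    (hnw : (QuotientGroup.mk nw : WP (R.bnPair hgen)) = (Bl R hgen cs' hcs).δ x (t.θ x)) :
    ∃ (g : Y) (t' : Mv (Bl R hgen cs' hcs) Y), g • ch R hgen 1 = x ∧ (∀ y, t'.τ y = g⁻¹ * t.τ (g * y * g⁻¹) * g) ∧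
      (∀ y, t'.θ y = g⁻¹ • t.θ (g • y)) ∧ (∀ v, t'.φ v = v) ∧ t'.θ (ch R hgen 1) = ch R hgen (nw : Y) := by
  have hI : Finite I := inferInstance
  have hW : Finite (WP (R.bnPair hgen)) := inferInstance
  have hC : Cox cs' := inferInstance
  let Sy := FixBN.OfBN.sys (eS R hgen) cs' hcs S
  have hiso : ∀ (g : Y) (x y : Y ⧸ (R.bnPair hgen).B), (Bl R hgen cs' hcs).δ (g • x) (g • y) =
    (Bl R hgen cs' hcs).δ x y := fun g x y => Sy.iso g x y
  obtain ⟨g, rfl⟩ : ∃ g : Y, ch R hgen g = x := QuotientGroup.mk_surjective x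
  have hg1 : ch R hgen g = g • ch R hgen 1 := by rw [smul_ch, mul_one]
  have h1 : dist (R.bnPair hgen) (ch R hgen 1) (ch R hgen (nw : Y)) =
      dist (R.bnPair hgen) (ch R hgen 1) (g⁻¹ • t.θ (ch R hgen g)) := by
    have e1 : (Bl R hgen cs' hcs).δ (ch R hgen 1) (ch R hgen (nw : Y)) = QuotientGroup.mk nw :=
      δ_ch R hgen cs' hcs (by rw [inv_one, one_mul])
    have e2 : (Bl R hgen cs' hcs).δ (ch R hgen 1) (g⁻¹ • t.θ (ch R hgen g)) = QuotientGroup.mk nw := by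
      rw [hnw, ← hiso g, smul_inv_smul, ← hg1]
    exact e1.trans e2.symm
  obtain ⟨u, hu, hu2⟩ := OfBN.trans S h1
  have huB : u • ch R hgen 1 = ch R hgen 1 := FixBN.OfBN.fix S hu
  obtain ⟨t', h2, h3, h4, -⟩ := exists_conj_mv S t (g * u) (g * u)
  refine ⟨g * u, t', ?_, h2, h3, fun v => by rw [h4]; exact hφ v, ?_⟩
  · rw [mul_smul, huB, ← hg1]
  · rw [h3, mul_smul, huB, ← hg1, mul_inv_rev, mul_smul, ← hu2, inv_smul_smul]

/-- **The polar node is excluded.** -/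
theorem no_polar (S : Split (R.bnPair hgen) p (Sup X (Pos cs h))) {o i j : I} {ρ : I → ℤ} {ωJ : List I}
    (hP : PRoots cs' h o i j ρ ωJ) {E : Y} (hE : E ∈ X (sr o)) (hE1 : E ≠ 1) (hE2 : ∀ x ∈ X (sr o), x = 1 ∨ x = E)
    (hcent : ∀ D ∈ X ρ, D ≠ 1 → ∀ b ∈ B cs h T X, b * D = D * b) (t : Mv (Bl R hgen cs' hcs) Y)
    (hφ : ∀ v, t.φ v = v) (h3 : ∀ x, t.τ (t.τ (t.τ x)) = x) {x : Y ⧸ (R.bnPair hgen).B} {w : WP (R.bnPair hgen)}
    (hw : (Bl R hgen cs' hcs).δ x (t.θ x) = w)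
    (hmax : ∀ y, cs'.length ((Bl R hgen cs' hcs).δ y (t.θ y)) ≤ cs'.length w)
    (e1 : wJ cs' {o}ᶜ * w = w0 cs') (e3 : ∀ k, k ≠ o → cs'.simple k * w = w * cs'.simple k)
    (e4 : ∀ k, k ≠ o → cs'.length w < cs'.length (cs'.simple k * w))
    (e5 : cs'.length (w * cs'.simple o) < cs'.length w) : False := by
  have hI : Finite I := inferInstance
  have hW : Finite (WP (R.bnPair hgen)) := inferInstance
  have hC : Cox cs' := inferInstance
  let Sy := FixBN.OfBN.sys (eS R hgen) cs' hcs S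
  have hwp := wpolar cs' h hP.polar e1 e3 e4 e5
  obtain ⟨nw, hnw⟩ := QuotientGroup.mk_surjective w
  obtain ⟨g, t', g1, g2, g3, g4, g5⟩ := to_base S t hφ x nw (by rw [hnw, hw])
  obtain ⟨κ, hκ⟩ := hP.orb
  obtain ⟨m, hm⟩ := QuotientGroup.mk_surjective κ
  have hmk : ∀ ω : List I, (QuotientGroup.mk ((ω.map (nn R hgen)).prod) : WP (R.bnPair hgen)) = cs'.wordProd ω := by
    intro ω
    induction ω with
    | nil => rw [List.map_nil, List.prod_nil, wordProd_nil]; rfl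
    | cons k ω ih =>
      rw [List.map_cons, List.prod_cons, QuotientGroup.mk_mul, ih, wordProd_cons, mk_nn R hgen cs' hcs]
  have hact : rep cs' h (QuotientGroup.mk m) (sr o) = ρ := by rw [hm]; exact hκ.symm
  have hDm : (m : Y) * E * (m : Y)⁻¹ ∈ X ρ := by
    rw [← hact]
    exact (rgd_cs cs' R).conj_mem (rp_mk R hgen cs' hcs m) (isRoot_sr cs' h o) hE
  have hPE : PElts R hgen cs' o ρ ωJ w E ((m : Y) * E * (m : Y)⁻¹) m nw ((ωJ.map (nn R hgen)).prod) :=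
    ⟨hE, hE1, hE2, hact, rfl, hnw, hmk ωJ, rfl, hcent _ hDm (conj_ne_one hE1)⟩
  refine polar_false (hcs := hcs) hP hwp hPE S t' g4 (fun y => ?_) g5 (fun y => ?_)
  · rw [g3]
    have h5 := Sy.iso g y (g⁻¹ • t.θ (g • y))
    rw [smul_inv_smul] at h5
    rw [← h5]
    exact hmax _
  · have e : ∀ y, g * t'.τ y * g⁻¹ = t.τ (g * y * g⁻¹) := by
      intro y
      rw [g2]; group
    have h6 : g * t'.τ (t'.τ (t'.τ y)) * g⁻¹ = g * y * g⁻¹ := by rw [e, e, e, h3]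
    exact mul_left_cancel (mul_right_cancel h6)

end Cfsg.Agent.H885.Dsp
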