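import Cfsg.Agent.H523.DspRgd

/-!
# The polar node: the element `w_J w₀`, `J` the complement of the polar node

helper885 (S2484).
-/

set_option autoImplicit false
set_option linter.unusedSectionVars false

namespace Cfsg.Agent.H885.Dsp

open CoxeterSystem Cfsg.Agent.ChevalleyStructure.CoxeterGeom Cfsg.Agent.Tits.Roots Cfsg.Agent.Tits.Core
  Cfsg.Agent.Tits.RootComb Cfsg.Agent.Tits.OppRes Cfsg.Agent.Nodes.Reps Cfsg.Agent.Nodes.BNOf

/-- The data of the polar node `o`: the highest root `ρ`, two further nodes `i`, `j`. -/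
structure Polar {I : Type*} [Fintype I] [DecidableEq I] (M : CoxeterMatrix I) (A : I → I → ℤ) (o i j : I) (ρ : I → ℤ) :
    Prop where
  nonneg : 0 ≤ ρ
  perp : ∀ k, k ≠ o → pairing A k ρ = 0
  one : pairing A o ρ = 1
  two : ρ o = 2
  nd : ∀ z : I → ℤ, z o = 0 → (∀ k, k ≠ o → pairing A k z = 0) → z = 0
  io : i ≠ o
  jo : j ≠ o
  ij : i ≠ j
  Aoi : A o i < 0
  Aoj : A o j = 0
  Moj : M o j = 2
  Mij : M i j ≠ 2
  Aij : A i j ≤ 0

variable {I : Type*} [Fintype I] [DecidableEq I] {M : CoxeterMatrix I} {W : Type*} [Group W] [Finite W]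
  (cs : CoxeterSystem M W) {A : I → I → ℤ} (h : IsCartan M A) {o i j : I} {ρ : I → ℤ}

theorem pairing_sr (A : I → I → ℤ) (k l : I) : pairing A k (sr l) = A k l := by
  unfold sr
  rw [pairing_single, mul_one]

/-- The conclusions. -/
structure WPolar (w : W) (o i j : I) (ρ : I → ℤ) : Prop where
  sq : w * w = 1
  comm : ∀ k, k ≠ o → cs.simple k * w = w * cs.simple k
  fixJ : ∀ k, k ≠ o → rep cs h w (sr k) = sr k
  act_o : rep cs h w (sr o) = sr o - ρ
  act_ρ : rep cs h w ρ = -ρ
  desc : cs.length (cs.simple o * w) < cs.length w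
  h0' : cs.length (cs.simple o * w * cs.simple o) < cs.length (cs.simple o * w)
  h1 : cs.length (cs.simple i * (cs.simple o * w)) < cs.length (cs.simple o * w)
  h2 : cs.length (cs.simple o * w) < cs.length (cs.simple o * w * cs.simple i)
  h3 : cs.length (cs.simple o * w * cs.simple i) < cs.length (cs.simple o * w * cs.simple i * cs.simple j)
  h4 : cs.simple j * (cs.simple o * w * cs.simple i) ≠ cs.simple o * w * cs.simple i * cs.simple j

theorem wpolar (P : Polar M A o i j ρ) {w : W}
    (e1 : wJ cs {o}ᶜ * w = w0 cs) (e3 : ∀ k, k ≠ o → cs.simple k * w = w * cs.simple k)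
    (e4 : ∀ k, k ≠ o → cs.length w < cs.length (cs.simple k * w))
    (e5 : cs.length (w * cs.simple o) < cs.length w) : WPolar cs h w o i j ρ := by
  have F : Cfsg.Agent.Tits.OppRes.Cox cs := inferInstance
  -- `w` commutes with `W_J`
  have hcomm : ∀ u ∈ WJ cs ({o}ᶜ : Set I), u * w = w * u := by
    intro u hu
    unfold WJ at hu
    induction hu using Subgroup.closure_induction with
    | mem x hx =>
      obtain ⟨j, hj, rfl⟩ := hx
      exact e3 j hj
    | one => rw [one_mul, mul_one]
    | mul x y _ _ hx hy => rw [mul_assoc, hy, ← mul_assoc, hx, mul_assoc]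
    | inv x _ hx => rw [inv_mul_eq_iff_eq_mul, ← mul_assoc, hx, mul_inv_cancel_right]
  have hww : w * w = 1 := by
    have h1 := F.w0_mul_self
    rw [← e1] at h1
    have h2 := hcomm _ (F.wJ_mem _)
    have h3 := F.wJ_mul_self ({o}ᶜ : Set I)
    calc w * w = wJ cs {o}ᶜ * wJ cs {o}ᶜ * (w * w) := by rw [h3, one_mul]
      _ = wJ cs {o}ᶜ * (wJ cs {o}ᶜ * w) * w := by group
      _ = wJ cs {o}ᶜ * (w * wJ cs {o}ᶜ) * w := by rw [h2]
      _ = wJ cs {o}ᶜ * w * (wJ cs {o}ᶜ * w) := by group
      _ = 1 := h1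
  -- `w` fixes the simple roots of `J`
  have hfix : ∀ j, j ≠ o → rep cs h w (sr j) = sr j := by
    intro j hj
    have h1 : cs.length w < cs.length (w * cs.simple j) := by rw [← e3 j hj]; exact e4 j hj
    have h2 : 0 ≤ rep cs h w (sr j) := (lt_iff' cs h w j).1 h1
    have h3 : rep cs h (cs.simple j) (rep cs h w (sr j)) = - rep cs h w (sr j) := by
      rw [← rep_mul_apply, e3 j hj, rep_mul_apply, rep_simple_sr, map_neg]
    rw [rep_simple_eq] at h3
    refine ((isRoot_sr cs h j).act w).eq_sr h2 j fun k hk => ?_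
    have h4 := congrFun h3 k
    rw [Pi.sub_apply, Pi.smul_apply, sr_ne hk, smul_zero, sub_zero, Pi.neg_apply] at h4
    omega
  obtain ⟨x, hx⟩ : ∃ x, x = rep cs h w (sr o) := ⟨_, rfl⟩
  have hneg : x ≤ 0 := by rw [hx]; exact nonpos_of_lt cs h w o e5
  have hpair : ∀ j, j ≠ o → pairing A j x = A j o := by
    intro j hj
    have h1 : rep cs h (cs.simple j) x = x - A j o • sr j := by
      rw [hx, ← rep_mul_apply, e3 j hj, rep_mul_apply, rep_simple_eq, map_sub, map_smul, hfix j hj, pairing_sr]
    rw [rep_simple_eq] at h1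
    have h2 := congrFun h1 j
    rw [Pi.sub_apply, Pi.sub_apply, Pi.smul_apply, Pi.smul_apply, sr_self, smul_eq_mul, smul_eq_mul, mul_one,
      mul_one] at h2
    omega
  -- linear combinations
  have hlin : ∀ y : I → ℤ, rep cs h w y = (y - y o • sr o) + y o • x := by
    intro y
    have h2 : y = ∑ k, y k • sr k := by
      funext l
      rw [Finset.sum_apply, Finset.sum_eq_single l]
      · rw [Pi.smul_apply, sr_self, smul_eq_mul, mul_one]
      · intro b _ hb
        rw [Pi.smul_apply, sr_ne hb.symm, smul_zero]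
      · intro hb
        exact absurd (Finset.mem_univ l) hb
    have h3 : rep cs h w y = ∑ k, y k • rep cs h w (sr k) := by
      conv_lhs => rw [h2]
      rw [map_sum]
      exact Finset.sum_congr rfl fun k _ => by rw [map_smul]
    have h4 : ∀ k, y k • rep cs h w (sr k) = y k • sr k + (if k = o then y o • x - y o • sr o else 0) := by
      intro k
      by_cases hk : k = o
      · subst hk
        rw [if_pos rfl, ← hx]
        abel
      · rw [if_neg hk, add_zero, hfix k hk]
    rw [h3, Finset.sum_congr rfl fun k _ => h4 k, Finset.sum_add_distrib, ← h2, Finset.sum_ite_eq' Finset.univ o,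
      if_pos (Finset.mem_univ o)]
    abel
  have hsq : x o * x o = 1 := by
    have h1 : rep cs h w x = sr o := by
      rw [hx, ← rep_mul_apply, hww, map_one, Module.End.one_apply]
    have h3 := congrFun (hlin x) o
    rw [h1, Pi.add_apply, Pi.sub_apply, Pi.smul_apply, Pi.smul_apply, sr_self, smul_eq_mul, smul_eq_mul, mul_one,
      sub_self, zero_add] at h3
    exact h3.symm
  have hx1 : x o = -1 := by
    have h0 : x o ≤ 0 := hneg o
    rcases Int.isUnit_iff.1 (IsUnit.of_mul_eq_one _ hsq) with h1 | h1 <;> omega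
  have hxo : x = sr o - ρ := by
    have h1 := P.nd (x - (sr o - ρ)) (by
      rw [Pi.sub_apply, Pi.sub_apply, sr_self, P.two, hx1]; norm_num) (fun k hk => by
      have h2 : pairing A k (x - (sr o - ρ)) = pairing A k x - (A k o - pairing A k ρ) := by
        have h3 : x - (sr o - ρ) = x + (-1 : ℤ) • sr o + ρ := by
          rw [neg_one_smul]; abel
        rw [h3, pairing_add, pairing_add, pairing_smul, pairing_sr]
        ring
      rw [h2, hpair k hk, P.perp k hk]
      ring)
    exact sub_eq_zero.1 h1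
  have hρ : rep cs h w ρ = -ρ := by
    rw [hlin, P.two, hxo, smul_sub]
    have : (2 : ℤ) • ρ = ρ + ρ := two_smul ℤ ρ
    rw [this]
    abel
  have hso : rep cs h (cs.simple o) ρ = ρ - sr o := by
    rw [rep_simple_eq, P.one, one_smul]
  have hwo : rep cs h w (sr o) = sr o - ρ := by rw [← hx, hxo]
  have hoi : rep cs h (cs.simple o) (sr i) = sr i - A o i • sr o := by rw [rep_simple_eq, pairing_sr]
  have hdesc : cs.length (cs.simple o * w) < cs.length w := by
    have h1 : w⁻¹ = w := inv_eq_of_mul_eq_one_left hww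
    have h2 := cs.length_inv (w * cs.simple o)
    rw [mul_inv_rev, cs.inv_simple, h1] at h2
    omega
  have key : ∀ (v : W) (k : I), rep cs h v (sr k) ≤ 0 → cs.length (v * cs.simple k) < cs.length v := by
    intro v k hv
    rcases cs.length_mul_simple v k with h1 | h1
    · exfalso
      have h2 : 0 ≤ rep cs h v (sr k) := (lt_iff' cs h v k).1 (by omega)
      exact ((isRoot_sr cs h k).act v).not_pos_neg h2 hv
    · omega
  have hinv : (cs.simple o * w)⁻¹ = w * cs.simple o := by
    rw [mul_inv_rev, cs.inv_simple, inv_eq_of_mul_eq_one_left hww]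
  refine ⟨hww, e3, hfix, hwo, hρ, hdesc, ?_, ?_, ?_, ?_, ?_⟩
  · apply key
    rw [rep_mul_apply, hwo, map_sub, rep_simple_sr, hso]
    have : -sr o - (ρ - sr o) = -ρ := by abel
    rw [this]
    exact neg_nonpos.2 P.nonneg
  · have h1 : cs.length ((cs.simple o * w)⁻¹ * cs.simple i) < cs.length (cs.simple o * w)⁻¹ := by
      apply key
      rw [hinv, rep_mul_apply, hoi, map_sub, map_smul, hfix i P.io, hwo]
      set y : I → ℤ := sr i - A o i • (sr o - ρ) with hy
      have hyr : IsRoot cs h y := by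
        rw [hy, ← hwo, ← hfix i P.io, ← map_smul, ← map_sub, ← hoi]
        exact ((isRoot_sr cs h i).act _).act _
      rcases hyr.pos_or_neg with h2 | h2
      · exfalso
        have h3 := h2 o
        rw [hy, Pi.sub_apply, Pi.smul_apply, Pi.sub_apply, sr_ne P.io.symm, sr_self, P.two, smul_eq_mul,
          Pi.zero_apply] at h3
        have h4 := P.Aoi
        linarith
      · exact h2
    rw [cs.length_inv] at h1
    have h2 := cs.length_inv ((cs.simple o * w)⁻¹ * cs.simple i)
    rw [mul_inv_rev, inv_inv, cs.inv_simple] at h2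
    omega
  · refine (lt_iff' cs h _ _).2 ?_
    show 0 ≤ rep cs h (cs.simple o * w) (sr i)
    rw [rep_mul_apply, hfix i P.io, hoi]
    intro k
    rw [Pi.sub_apply, Pi.smul_apply, smul_eq_mul]
    have h1 : (0 : ℤ) ≤ sr i k := sr_nonneg i k
    have h2 : (0 : ℤ) ≤ sr o k := sr_nonneg o k
    have h3 := P.Aoi
    show (0 : ℤ) ≤ _
    nlinarith
  · refine (lt_iff' cs h _ _).2 ?_
    show 0 ≤ rep cs h (cs.simple o * w * cs.simple i) (sr j)
    rw [rep_mul_apply, rep_simple_eq, pairing_sr, rep_mul_apply, map_sub, map_smul, hfix i P.io, hfix j P.jo, map_sub,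
      map_smul, hoi, rep_simple_eq, pairing_sr, P.Aoj, zero_smul, sub_zero]
    intro k
    rw [Pi.sub_apply, Pi.smul_apply, Pi.sub_apply, Pi.smul_apply, smul_eq_mul, smul_eq_mul]
    have h1 : (0 : ℤ) ≤ sr i k := sr_nonneg i k
    have h2 : (0 : ℤ) ≤ sr o k := sr_nonneg o k
    have h2' : (0 : ℤ) ≤ sr j k := sr_nonneg j k
    have h3 := P.Aoi
    have h4 := P.Aij
    have h5 : 0 ≤ sr i k - A o i * sr o k := by nlinarith
    show (0 : ℤ) ≤ _
    nlinarith
  · intro h5
    have hjo : cs.simple j * cs.simple o = cs.simple o * cs.simple j := by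
      have h6 := cs.simple_mul_simple_pow o j
      rw [P.Moj, pow_two] at h6
      have h7 : cs.simple o * cs.simple j = (cs.simple o * cs.simple j)⁻¹ := eq_inv_of_mul_eq_one_left h6
      rw [mul_inv_rev, cs.inv_simple, cs.inv_simple] at h7
      exact h7.symm
    have h6 : cs.simple j * (cs.simple o * w * cs.simple i) = cs.simple o * w * (cs.simple j * cs.simple i) := by
      rw [← mul_assoc, ← mul_assoc, hjo, mul_assoc (cs.simple o), e3 j P.jo]
      simp only [mul_assoc]
    rw [h6, mul_assoc (cs.simple o * w) (cs.simple i)] at h5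
    have h7 := mul_left_cancel h5
    refine Cfsg.Agent.Nodes.BNOf.RGD.comm_ne (cs := cs) (h := h) P.ij P.Mij ?_
    rw [← h7, cs.inv_simple, cs.inv_simple]
    simp

end Cfsg.Agent.H885.Dsp
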