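import Mathlib

/-!
# The relations of `SL₃(2)` and an automorphism of order three

helper885 (S2484). Pure group theory: the last step of the exclusion of the polar node.
-/

set_option autoImplicit false

namespace Cfsg.Agent.H885.Dsp

/-- The relations: `A = x_α`, `A' = x_{-α}`, `C = x_{θ-α}`, `C' = x_{α-θ}`, `D = x_θ`, `D' = x_{-θ}`. -/
theorem eq_of_rel {G : Type*} [Group G] (τ : G ≃* G) (h3 : ∀ x, τ (τ (τ x)) = x) {A A' C C' D D' : G}
    (a2 : A' * A' = 1) (c2 : C * C = 1) (d2' : D' * D' = 1)
    (r1 : A' * C = C * A') (r2 : C * A * C = A * D) (r3 : A' * D * A' = D * C) (r4 : A' * C' * A' = C' * D')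
    (r5 : C * D' * C = D' * A') (r6 : A' * A * A' = A * A' * A) (r7 : C * C' * C = C' * C * C')
    (r8 : D' * C' = C' * D') (r9 : D' * A' = A' * D')
    (tD : τ D = D') (tC : τ C = A') (tA : τ A = C')
    (tg : τ (A' * C * A * (A' * C)⁻¹) = A' * C * C' * (A' * C)⁻¹) : A' = C := by
  have ia : A'⁻¹ = A' := inv_eq_of_mul_eq_one_left a2
  have ic : C⁻¹ = C := inv_eq_of_mul_eq_one_left c2
  have e1 : A' * C * A * (A' * C)⁻¹ = (A' * A * A') * (D * C) := by
    calc A' * C * A * (A' * C)⁻¹ = A' * (C * A * C) * A' := by rw [mul_inv_rev, ia, ic]; group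
      _ = A' * A * (A' * A') * D * A' := by rw [r2, a2]; group
      _ = (A' * A * A') * (A' * D * A') := by group
      _ = (A' * A * A') * (D * C) := by rw [r3]
  have e2 : A' * C * C' * (A' * C)⁻¹ = C' * C * C' * (D' * A') := by
    have h1 : A' * C * A' = C := by rw [r1, mul_assoc, a2, mul_one]
    have h2 : D' * C = C * (D' * A') := by
      rw [← r5, ← mul_assoc, ← mul_assoc, c2, one_mul]
    have h4 : A' * C' = C' * D' * A' := by
      rw [← r4, mul_assoc, a2, mul_one]
    calc A' * C * C' * (A' * C)⁻¹ = A' * (C * C' * C) * A' := by rw [mul_inv_rev, ia, ic]; group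
      _ = A' * C' * (A' * A') * C * (A' * A') * C' * A' := by rw [r7, a2]; group
      _ = (A' * C' * A') * (A' * C * A') * (A' * C' * A') := by group
      _ = C' * (D' * C) * (C' * D') := by rw [r4, h1]; group
      _ = C' * C * D' * (A' * C') * D' := by rw [h2]; group
      _ = C' * C * (D' * C') * (D' * A') * D' := by rw [h4]; group
      _ = C' * C * C' * (D' * D') * A' * D' := by rw [r8]; group
      _ = C' * C * C' * (A' * D') := by rw [d2']; group
      _ = C' * C * C' * (D' * A') := by rw [r9]
  rw [e1, e2, map_mul, map_mul, map_mul, map_mul, tA, tD, tC] at tg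
  have e3 := mul_right_cancel tg
  have e4 := congrArg τ r6
  rw [map_mul, map_mul, map_mul, map_mul, tA, e3] at e4
  have e5 : τ A' = C := by
    have := mul_right_cancel e4
    exact (mul_left_cancel this).symm
  have e6 := h3 C
  rw [tC, e5, tC] at e6
  exact e6

end Cfsg.Agent.H885.Dsp
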