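import Cfsg.Agent.H885.Dsp.Bld
import Cfsg.Agent.H885.Dsp.Apt
import Cfsg.Agent.H885.Dsp.Rel
import Cfsg.Agent.H885.Dsp.PRoot

/-!
# The maximal displacement of an automorphism of order three is not the one of the polar node

helper885 (S2484). `R` a root group datum, `o` the polar node with `|X (sr o)| = 2`, `t` a type preserving automorphism
of order dividing three. `t` does not have the maximal displacement `w = w_J w₀ = s_ρ`, `J` the complement of `o`.
-/

set_option autoImplicit false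
set_option linter.unusedSectionVars false

namespace Cfsg.Agent.H885.Dsp

open CoxeterSystem Cfsg.Agent.ChevalleyStructure.CoxeterGeom Cfsg.Agent.Tits.Roots Cfsg.Agent.Tits.Core
  Cfsg.Agent.Tits.RootComb Cfsg.Agent.Nodes.Comb Cfsg.Agent.Nodes.Reps Cfsg.Agent.Nodes.BNOf Cfsg.Agent.Nodes.BNOf.RGD
  Cfsg.Agent.FixBN Cfsg.Agent.Tits.OfBN Cfsg.Agent.Tits.OppRes Cfsg.Agent.LieExceptional.BNPairCore
  Cfsg.Agent.OddHalf.Table.AutBldg Cfsg.Agent.OddHalf.Table.AutRGD Cfsg.Agent.OddHalf.Table.AutNorm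
  Cfsg.Agent.Tits.Core.Bldg Cfsg.Agent.UGT.U2.FOne Cfsg.Agent.Schreier.BNSch

variable {I W Y : Type*} [Fintype I] [DecidableEq I] [Group W] [Group Y] {M : CoxeterMatrix I}
  {cs : CoxeterSystem M W} {A : I → I → ℤ} {h : IsCartan M A} {p : ℕ} {T : Subgroup Y} {n : I → Y}
  {X : (I → ℤ) → Subgroup Y} [Finite W]

section Uniq

variable (R : RGD cs h p T n X) {o : I} {E : Y} (hE : E ∈ X (sr o)) (hE1 : E ≠ 1)
  (hE2 : ∀ x ∈ X (sr o), x = 1 ∨ x = E)

include R hE2 in
/-- The nontrivial element of `X x`, `x` in the orbit of `sr o`, is unique. -/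
theorem uniq {x : I → ℤ} (hx : ∃ v, x = rep cs h v (sr o)) {a b : Y} (ha : a ∈ X x) (hb : b ∈ X x) (ha1 : a ≠ 1)
    (hb1 : b ≠ 1) : a = b := by
  obtain ⟨v, rfl⟩ := hx
  obtain ⟨g, hg⟩ := exists_rp cs R.nsys v
  have h1 := R.conj_rp hg (isRoot_sr cs h o)
  rw [← h1, mem_cj] at ha hb
  have h2 : ∀ y, g⁻¹ * y * g ∈ X (sr o) → y ≠ 1 → y = g * E * g⁻¹ := by
    intro y hy hy1
    rcases hE2 _ hy with h3 | h3
    · exfalso
      apply hy1
      have : y = g * (g⁻¹ * y * g) * g⁻¹ := by group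
      rw [this, h3]; group
    · rw [← h3]; group
  rw [h2 a ha ha1, h2 b hb hb1]

include R hE2 in
theorem sq_one {x : I → ℤ} (hx : ∃ v, x = rep cs h v (sr o)) {a : Y} (ha : a ∈ X x) (ha1 : a ≠ 1) : a * a = 1 := by
  by_contra h1
  have h2 := uniq R hE2 hx (mul_mem ha ha) ha h1 ha1
  exact ha1 (mul_eq_left.1 h2)

end Uniq

/-- The hypotheses on the root system (for the Coxeter system `cs`). -/
structure PRoots (cs : CoxeterSystem M W) (h : IsCartan M A) (o i j : I) (ρ : I → ℤ) (ωJ : List I) : Prop where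
  polar : Polar M A o i j ρ
  orb : ∃ κ : W, ρ = rep cs h κ (sr o)
  nb2 : ∀ z, Btwn cs h (ρ - sr o) (sr o) z → z = ρ
  memJ : ∀ k ∈ ωJ, k ≠ o
  actJ : rep cs h (cs.wordProd ωJ) (ρ - sr o) = sr o

variable {R : RGD cs h p T n X} {hgen : B cs h T X ⊔ NN cs R.nsys = ⊤}
  [hN : (((R.bnPair hgen).B ⊓ (R.bnPair hgen).N).subgroupOf (R.bnPair hgen).N).Normal]
  {cs' : CoxeterSystem M (WP (R.bnPair hgen))}
  {hcs : ∀ i, cs'.simple i = QuotientGroup.mk
    (⟨(eS R hgen i : Y), (R.bnPair hgen).subset (eS R hgen i).2⟩ : (R.bnPair hgen).N)}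
  [Finite Y] [Fact p.Prime] (S : Split (R.bnPair hgen) p (Sup X (Pos cs h)))

/-- The elements. -/
structure PElts (R : RGD cs h p T n X) (hgen : B cs h T X ⊔ NN cs R.nsys = ⊤)
    [hN : (((R.bnPair hgen).B ⊓ (R.bnPair hgen).N).subgroupOf (R.bnPair hgen).N).Normal]
    (cs' : CoxeterSystem M (WP (R.bnPair hgen))) (o : I) (ρ : I → ℤ) (ωJ : List I) (w : WP (R.bnPair hgen)) (E D : Y)
    (m nw gJ : (R.bnPair hgen).N) : Prop where
  E_mem : E ∈ X (sr o)
  E_ne : E ≠ 1
  E_uniq : ∀ x ∈ X (sr o), x = 1 ∨ x = E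
  m_act : rep cs' h (QuotientGroup.mk m) (sr o) = ρ
  D_eq : D = (m : Y) * E * (m : Y)⁻¹
  nw_mk : (QuotientGroup.mk nw : WP (R.bnPair hgen)) = w
  gJ_mk : (QuotientGroup.mk gJ : WP (R.bnPair hgen)) = cs'.wordProd ωJ
  gJ_eq : gJ = (ωJ.map (nn R hgen)).prod
  cB : ∀ b ∈ B cs h T X, b * D = D * b

section Facts

variable {o i j : I} {ρ : I → ℤ} {ωJ : List I} {w : WP (R.bnPair hgen)} {E D : Y} {m nw gJ : (R.bnPair hgen).N}
  (hP : PRoots cs' h o i j ρ ωJ) (hw : WPolar cs' h w o i j ρ) (hE : PElts R hgen cs' o ρ ωJ w E D m nw gJ)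

include hcs hE in
theorem D_mem : D ∈ X ρ := by
  rw [hE.D_eq, ← hE.m_act]
  exact (rgd_cs cs' R).conj_mem (rp_mk R hgen cs' hcs m) (isRoot_sr cs' h o) hE.E_mem

theorem conj_ne_one {x g : Y} (hx : x ≠ 1) : g * x * g⁻¹ ≠ 1 := by
  intro h1
  apply hx
  have : x = g⁻¹ * (g * x * g⁻¹) * g := by group
  rw [this, h1]; group

include hE in
theorem D_ne : D ≠ 1 := by
  rw [hE.D_eq]
  exact conj_ne_one hE.E_ne

include hcs in
/-- `B` centralises `D`, if there are no roots strictly between `ρ` and another positive root. -/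
theorem B_cent (hU : ∀ x ∈ X (sr o), x = 1 ∨ x = E) (hρ0 : 0 ≤ ρ) (orb : ∃ κ : WP (R.bnPair hgen), ρ = rep cs' h κ (sr o))
    (nb : ∀ β, IsRoot cs' h β → 0 ≤ β → β ≠ ρ → ∀ z, ¬ Btwn cs' h ρ β z) (hDm : D ∈ X ρ) (hD1 : D ≠ 1) :
    ∀ b ∈ B cs h T X, b * D = D * b := by
  have h1 : B cs h T X ≤ Subgroup.centralizer {D} := by
    refine sup_le ?_ (Sup_le ?_)
    · intro t ht
      rw [Subgroup.mem_centralizer_singleton_iff]
      have h2 : t * D * t⁻¹ ∈ X ρ := by
        have h3 := (rgd_cs cs' R).tor ρ (by obtain ⟨κ, hκ⟩ := orb; exact hκ ▸ (isRoot_sr cs' h o).act κ) t ht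
        rw [← h3]
        exact conj_mem_cj.2 hDm
      have h3 := uniq (rgd_cs cs' R) hU orb h2 hDm (conj_ne_one hD1) hD1
      have h4 : t * D = D * t := by
        conv_rhs => rw [← h3]
        group
      exact h4
    · intro β hβ x hx
      rw [Subgroup.mem_centralizer_singleton_iff]
      have hβr := isRoot_cs cs cs' h hβ.1
      have hρr : IsRoot cs' h ρ := by obtain ⟨κ, hκ⟩ := orb; exact hκ ▸ (isRoot_sr cs' h o).act κ
      by_cases he : β = ρ
      · subst he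
        by_cases hx1 : x = 1
        · rw [hx1]; simp
        · rw [uniq (rgd_cs cs' R) hU orb hx hDm hx1 hD1]
      · have hne : ρ ≠ -β := by
          intro h5
          have h6 : (0 : I → ℤ) ≤ -β := h5 ▸ hρ0
          exact hβr.not_pos_neg hβ.2 (neg_nonneg.1 h6)
        have h2 := (rgd_cs cs' R).comm ρ β hρr hβr (Ne.symm he) hne D hDm x hx
        have h3 : Nodes.Reps.btw cs' h X ρ β = ⊥ := by
          unfold Nodes.Reps.btw
          rw [eq_bot_iff]
          refine iSup_le ?_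
          rintro ⟨z, hz⟩
          exact absurd hz (nb β hβr hβ.2 he z)
        rw [h3, Subgroup.mem_bot, commutatorElement_eq_one_iff_mul_comm] at h2
        exact h2.symm
  intro b hb
  exact Subgroup.mem_centralizer_singleton_iff.1 (h1 hb)

include hcs hw hE in
/-- Weyl distances of `k B` and `k n_w B`. -/
theorem δ_nw (k : (R.bnPair hgen).N) :
    (Bl R hgen cs' hcs).δ (ch R hgen (k : Y)) (ch R hgen ((k : Y) * nw)) = w := by
  rw [← hE.nw_mk]
  exact δ_ch R hgen cs' hcs (by group)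

variable (t : Mv (Bl R hgen cs' hcs) Y) (hφ : ∀ v, t.φ v = v)
  (hmax : ∀ y, cs'.length ((Bl R hgen cs' hcs).δ y (t.θ y)) ≤ cs'.length w)

include hw hE hφ hmax in
/-- The projections at a chamber `k B` of the apartment. -/
theorem proj_apt (k : (R.bnPair hgen).N) (hk : t.θ (ch R hgen (k : Y)) = ch R hgen ((k : Y) * nw)) :
    t.θ (ch R hgen ((k : Y) * n o)) = ch R hgen ((k : Y) * nw * n o) := by
  have hI : Finite I := inferInstance
  have hno : (QuotientGroup.mk (nn R hgen o) : WP (R.bnPair hgen)) = cs'.simple o := mk_nn R hgen cs' hcs o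
  refine proj_eq (thick (R.bnPair hgen) (eS R hgen) cs' hcs) (fun x y => by rw [t.δ_θ, hφ]) (w := w)
    (x := ch R hgen (k : Y)) ?_ hmax hw.desc hw.h0' hw.h1 hw.h2 hw.h3 hw.h4 ?_ ?_ ?_ ?_
  · rw [hk]
    exact δ_nw hw hE k
  · rw [← hno]
    exact δ_ch R hgen cs' hcs (by rw [inv_mul_cancel_left]; rfl)
  · rw [hk, ← cs'.inv_simple, ← hno, ← hE.nw_mk, ← QuotientGroup.mk_inv, ← QuotientGroup.mk_mul]
    exact δ_ch R hgen cs' hcs (by
      show ((k : Y) * n o)⁻¹ * ((k : Y) * nw) = (n o)⁻¹ * (nw : Y)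
      group)
  · rw [hk, ← hno]
    exact δ_ch R hgen cs' hcs (by rw [inv_mul_cancel_left]; rfl)
  · rw [← hno, ← hE.nw_mk, ← QuotientGroup.mk_mul]
    exact δ_ch R hgen cs' hcs (by
      show (k : Y)⁻¹ * ((k : Y) * nw * n o) = (nw : Y) * n o
      group)

include hw hE hφ hmax in
/-- The residue of `B`. -/
theorem res_apt (h1 : t.θ (ch R hgen 1) = ch R hgen (nw : Y)) (ω : List I) (hω : ∀ k ∈ ω, k ≠ o) :
    t.θ (ch R hgen (((ω.map (nn R hgen)).prod : (R.bnPair hgen).N) : Y)) =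
      ch R hgen ((((ω.map (nn R hgen)).prod : (R.bnPair hgen).N) : Y) * nw) := by
  induction ω using List.reverseRecOn with
  | nil =>
    simp only [List.map_nil, List.prod_nil, Subgroup.coe_one, one_mul]
    exact h1
  | append_singleton ω k ih =>
    have ih' := ih fun l hl => hω l (List.mem_append_left _ hl)
    have hk : k ≠ o := hω k (by simp)
    have hnk : (QuotientGroup.mk (nn R hgen k) : WP (R.bnPair hgen)) = cs'.simple k := mk_nn R hgen cs' hcs k
    rw [List.map_append, List.prod_append, List.map_singleton, List.prod_singleton]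
    set g : (R.bnPair hgen).N := (ω.map (nn R hgen)).prod with hg
    refine res_step (fun x y => by rw [t.δ_θ, hφ]) (w := w) (x := ch R hgen (g : Y)) ?_ hmax (hw.comm k hk) ?_
      ?_ ?_ ?_
    · rw [ih']
      exact δ_nw hw hE g
    · -- ascent
      have h2 := (lt_iff' cs' h w k).2 (by
        show 0 ≤ rep cs' h w (sr k)
        rw [hw.fixJ k hk]
        exact sr_nonneg k)
      rw [hw.comm k hk]
      exact h2
    · rw [← hnk]
      exact δ_ch R hgen cs' hcs (by rw [Subgroup.coe_mul, inv_mul_cancel_left])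
    · rw [ih']
      have h3 : cs'.simple k = w⁻¹ * cs'.simple k * w := by
        rw [mul_assoc, hw.comm k hk, inv_mul_cancel_left]
      rw [h3, ← hnk, ← hE.nw_mk, ← QuotientGroup.mk_inv, ← QuotientGroup.mk_mul, ← QuotientGroup.mk_mul]
      exact δ_ch R hgen cs' hcs (by
        show ((g : Y) * nw)⁻¹ * ((g : Y) * (nn R hgen k : Y) * nw) = (nw : Y)⁻¹ * (nn R hgen k : Y) * nw
        group)
    · exact δ_nw hw hE (g * nn R hgen k)

include S hP hw hE hφ hmax in
/-- The images of the three elements `D`, `C = n_o D n_o⁻¹`, `A = g_J C g_J⁻¹`. -/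
theorem facts (h1 : t.θ (ch R hgen 1) = ch R hgen (nw : Y)) :
    t.τ D = (nw : Y) * D * (nw : Y)⁻¹ ∧
    t.τ (n o * D * (n o)⁻¹) = (nw : Y) * n o * D * ((nw : Y) * n o)⁻¹ ∧
    t.τ ((gJ : Y) * n o * D * ((gJ : Y) * n o)⁻¹) = (gJ : Y) * nw * n o * D * ((gJ : Y) * nw * n o)⁻¹ := by
  have hB := hE.cB
  have hm : ∀ {g k : Y}, t.θ (ch R hgen g) = ch R hgen k → t.τ (g * D * g⁻¹) = k * D * k⁻¹ := fun {g k} hgk =>
    map_conj S t hφ hgk hE.E_mem hE.E_ne hE.E_uniq hE.D_eq hB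
  have h2 := proj_apt hw hE t hφ hmax 1 (by
    rw [Subgroup.coe_one, one_mul]
    exact h1)
  have h3 := res_apt hw hE t hφ hmax h1 ωJ hP.memJ
  rw [← hE.gJ_eq] at h3
  have h4 := proj_apt hw hE t hφ hmax gJ h3
  refine ⟨?_, ?_, hm h4⟩
  · have := hm h1
    simpa using this
  · have := hm h2
    simpa using this

end Facts

end Cfsg.Agent.H885.Dsp
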