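import Cfsg.Agent.H885.Dsp.Polar

/-!
# The maximal displacement of an automorphism of order three is not the one of the polar node (end)

helper885 (S2484). `polar_false` : the contradiction, for `t.θ (B) = n_w B`.
-/

set_option autoImplicit false
set_option linter.unusedSectionVars false

namespace Cfsg.Agent.H885.Dsp

open CoxeterSystem Cfsg.Agent.ChevalleyStructure.CoxeterGeom Cfsg.Agent.Tits.Roots Cfsg.Agent.Tits.Core
  Cfsg.Agent.Tits.RootComb Cfsg.Agent.Nodes.Comb Cfsg.Agent.Nodes.Reps Cfsg.Agent.Nodes.BNOf Cfsg.Agent.Nodes.BNOf.RGD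
  Cfsg.Agent.FixBN Cfsg.Agent.Tits.OfBN Cfsg.Agent.Tits.OppRes Cfsg.Agent.LieExceptional.BNPairCore
  Cfsg.Agent.OddHalf.Table.AutBldg Cfsg.Agent.OddHalf.Table.AutRGD Cfsg.Agent.OddHalf.Table.AutNorm
  Cfsg.Agent.Tits.Core.Bldg Cfsg.Agent.UGT.U2.FOne Cfsg.Agent.Schreier.BNSch
  Cfsg.Agent.OddHalf.NI.FTwo.IdentRgd

/-- The elements of the relations. -/
structure Rels {Y : Type*} [Group Y] (no nw gJ D A A' C C' D' : Y) : Prop where
  a2 : A' * A' = 1
  c2 : C * C = 1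
  d2' : D' * D' = 1
  r1 : A' * C = C * A'
  r2 : C * A * C = A * D
  r3 : A' * D * A' = D * C
  r4 : A' * C' * A' = C' * D'
  r5 : C * D' * C = D' * A'
  r6 : A' * A * A' = A * A' * A
  r7 : C * C' * C = C' * C * C'
  r8 : D' * C' = C' * D'
  r9 : D' * A' = A' * D'
  wA' : nw⁻¹ * A' * nw = C
  wC : nw⁻¹ * C * nw = A'
  oA' : no⁻¹ * A' * no = A

variable {I W Y : Type*} [Fintype I] [DecidableEq I] [Group W] [Group Y] {M : CoxeterMatrix I}
  {cs : CoxeterSystem M W} {A : I → I → ℤ} {h : IsCartan M A} {p : ℕ} {T : Subgroup Y} {n : I → Y}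
  {X : (I → ℤ) → Subgroup Y} [Finite W]

variable {R : RGD cs h p T n X} {hgen : B cs h T X ⊔ NN cs R.nsys = ⊤}
  [hN : (((R.bnPair hgen).B ⊓ (R.bnPair hgen).N).subgroupOf (R.bnPair hgen).N).Normal]
  {cs' : CoxeterSystem M (WP (R.bnPair hgen))}
  {hcs : ∀ i, cs'.simple i = QuotientGroup.mk
    (⟨(eS R hgen i : Y), (R.bnPair hgen).subset (eS R hgen i).2⟩ : (R.bnPair hgen).N)}

open scoped commutatorElement

variable [Finite Y] [Fact p.Prime]

variable {o i j : I} {ρ : I → ℤ} {ωJ : List I} {w : WP (R.bnPair hgen)} {E D : Y} {m nw gJ : (R.bnPair hgen).N}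
  (hP : PRoots cs' h o i j ρ ωJ) (hw : WPolar cs' h w o i j ρ) (hE : PElts R hgen cs' o ρ ωJ w E D m nw gJ)

/-- `C = x_{ρ - o}` -/
def Cel (o : I) (n : I → Y) (D : Y) : Y := n o * D * (n o)⁻¹

theorem cj3 {Y : Type*} [Group Y] {g x y z x' y' z' : Y} (hx : g * x * g⁻¹ = x') (hy : g * y * g⁻¹ = y')
    (hz : g * z * g⁻¹ = z') : g * (x * y * z) * g⁻¹ = x' * y' * z' := by
  rw [← hx, ← hy, ← hz]; group

theorem cj2 {Y : Type*} [Group Y] {g x y x' y' : Y} (hx : g * x * g⁻¹ = x') (hy : g * y * g⁻¹ = y') :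
    g * (x * y) * g⁻¹ = x' * y' := by
  rw [← hx, ← hy]; group

include hcs hP hw hE in
theorem rels : ∃ Aα C' D' : Y, Rels (n o) (nw : Y) (gJ : Y) D Aα ((nw : Y) * Cel o n D * (nw : Y)⁻¹) (Cel o n D) C' D' ∧
    Cel o n D ∈ B cs h T X ∧ (nw : Y) * Cel o n D * (nw : Y)⁻¹ ∉ B cs h T X ∧
    (nw : Y) * Cel o n D * (nw : Y)⁻¹ ∈ X (-sr o) ∧
    Aα = (gJ : Y) * n o * D * ((gJ : Y) * n o)⁻¹ ∧
    C' = (gJ : Y) * nw * n o * D * ((gJ : Y) * nw * n o)⁻¹ ∧ D' = (nw : Y) * D * (nw : Y)⁻¹ := by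
  have hI : Finite I := inferInstance
  have hW : Finite (WP (R.bnPair hgen)) := inferInstance
  obtain ⟨R', hR'⟩ : ∃ R' : RGD cs' h p T n X, R' = rgd_cs cs' R := ⟨_, rfl⟩
  have hDm := D_mem (hcs := hcs) hE
  have hD1 := D_ne hE
  have hB := hE.cB
  have hU := hE.E_uniq
  -- representatives
  have rw_ : Rp cs' R'.nsys w (nw : Y) := by
    have := rp_mk R hgen cs' hcs nw
    rwa [hE.nw_mk] at this
  have rJ : Rp cs' R'.nsys (cs'.wordProd ωJ) (gJ : Y) := by
    have := rp_mk R hgen cs' hcs gJ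
    rwa [hE.gJ_mk] at this
  have ro : Rp cs' R'.nsys (cs'.simple o) (n o) := rp_simple cs' R'.nsys o
  -- the action on roots
  have a1 : rep cs' h (cs'.simple o) ρ = ρ - sr o := by rw [rep_simple_eq, hP.polar.one, one_smul]
  have a2 : rep cs' h w (ρ - sr o) = -sr o := by
    rw [map_sub, hw.act_ρ, hw.act_o]; abel
  have a3 : rep cs' h (cs'.wordProd ωJ) ρ = ρ := by
    have key : ∀ ω : List I, (∀ k ∈ ω, k ≠ o) → rep cs' h (cs'.wordProd ω) ρ = ρ := by
      intro ω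
      induction ω with
      | nil => intro _; rw [wordProd_nil, map_one, Module.End.one_apply]
      | cons k ω ih =>
        intro hk
        rw [wordProd_cons, rep_mul_apply, ih fun l hl => hk l (List.mem_cons_of_mem _ hl), rep_simple_eq,
          hP.polar.perp k (hk k (List.mem_cons_self ..)), zero_smul, sub_zero]
    exact key ωJ hP.memJ
  have a4 : rep cs' h (cs'.wordProd ωJ) (sr o) = ρ - sr o := by
    have h1 := hP.actJ
    rw [map_sub, a3] at h1
    have h2 : rep cs' h (cs'.wordProd ωJ) (sr o) = ρ - (ρ - rep cs' h (cs'.wordProd ωJ) (sr o)) := by abel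
    rw [h2, h1]
  have ww : ∀ x, rep cs' h w (rep cs' h w x) = x := fun x => by
    rw [← rep_mul_apply, hw.sq, map_one, Module.End.one_apply]
  -- orbits
  obtain ⟨κ, hκ⟩ := hP.orb
  have oρ : ∃ v, ρ = rep cs' h v (sr o) := ⟨κ, hκ⟩
  have oC : ∃ v, ρ - sr o = rep cs' h v (sr o) := ⟨cs'.simple o * κ, by rw [rep_mul_apply, ← hκ, a1]⟩
  have oA' : ∃ v, -sr o = rep cs' h v (sr o) := ⟨cs'.simple o, by rw [rep_simple_sr]⟩
  have oA : ∃ v, sr o = rep cs' h v (sr o) := ⟨1, by rw [map_one, Module.End.one_apply]⟩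
  have oC' : ∃ v, sr o - ρ = rep cs' h v (sr o) := ⟨w, hw.act_o.symm⟩
  have oD' : ∃ v, -ρ = rep cs' h v (sr o) := ⟨w * κ, by rw [rep_mul_apply, ← hκ, hw.act_ρ]⟩
  have isr : ∀ {x : I → ℤ}, (∃ v, x = rep cs' h v (sr o)) → IsRoot cs' h x := by
    rintro x ⟨v, rfl⟩
    exact (isRoot_sr cs' h o).act v
  -- the elements
  obtain ⟨C, hC⟩ : ∃ C, C = Cel o n D := ⟨_, rfl⟩
  rw [← hC]
  unfold Cel at hC
  obtain ⟨A', hA'⟩ : ∃ A', A' = (nw : Y) * C * (nw : Y)⁻¹ := ⟨_, rfl⟩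
  rw [← hA']
  obtain ⟨Aα, hAα⟩ : ∃ Aα, Aα = (gJ : Y) * C * (gJ : Y)⁻¹ := ⟨_, rfl⟩
  obtain ⟨C', hC'⟩ : ∃ C', C' = (gJ : Y) * A' * (gJ : Y)⁻¹ := ⟨_, rfl⟩
  obtain ⟨D', hD'⟩ : ∃ D', D' = (nw : Y) * D * (nw : Y)⁻¹ := ⟨_, rfl⟩
  have mC : C ∈ X (ρ - sr o) := by
    rw [hC, ← a1]; exact R'.conj_mem ro (isr oρ) hDm
  have mA' : A' ∈ X (-sr o) := by
    rw [hA', ← a2]; exact R'.conj_mem rw_ (isr oC) mC
  have mA : Aα ∈ X (sr o) := by
    have := R'.conj_mem rJ (isr oC) mC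
    rwa [← hAα, hP.actJ] at this
  have mC' : C' ∈ X (sr o - ρ) := by
    have := R'.conj_mem rJ (isr oA') mA'
    rw [← hC', map_neg, a4] at this
    have e : -(ρ - sr o) = sr o - ρ := by abel
    rwa [e] at this
  have mD' : D' ∈ X (-ρ) := by
    have := R'.conj_mem rw_ (isr oρ) hDm
    rwa [← hD', hw.act_ρ] at this
  have nC : C ≠ 1 := by rw [hC]; exact conj_ne_one hD1
  have nA' : A' ≠ 1 := by rw [hA']; exact conj_ne_one nC
  have nA : Aα ≠ 1 := by rw [hAα]; exact conj_ne_one nC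
  have nC' : C' ≠ 1 := by rw [hC']; exact conj_ne_one nA'
  have nD' : D' ≠ 1 := by rw [hD']; exact conj_ne_one hD1
  have un : ∀ {x : I → ℤ}, (∃ v, x = rep cs' h v (sr o)) → ∀ {a b : Y}, a ∈ X x → b ∈ X x → a ≠ 1 → b ≠ 1 → a = b := by
    intro x hx a b ha hb ha1 hb1
    exact uniq R' hU hx ha hb ha1 hb1
  have sq : ∀ {x : I → ℤ}, (∃ v, x = rep cs' h v (sr o)) → ∀ {a : Y}, a ∈ X x → a ≠ 1 → a * a = 1 := by
    intro x hx a ha ha1
    exact sq_one R' hU hx ha ha1
  -- conjugation by `n_w`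
  have wA : (nw : Y) * Aα * (nw : Y)⁻¹ = C' := un oC' (by
    have := R'.conj_mem rw_ (isr oA) mA
    rwa [hw.act_o] at this) mC' (conj_ne_one nA) nC'
  have wA' : (nw : Y) * A' * (nw : Y)⁻¹ = C := un oC (by
    have := R'.conj_mem rw_ (isr oA') mA'
    rwa [← a2, ww] at this) mC (conj_ne_one nA') nC
  -- conjugation by `n_o`
  have oCD : n o * C * (n o)⁻¹ = D := by
    have h1 := hB _ (T_le_B (R.sq_mem_T o))
    have h2 : n o * C * (n o)⁻¹ = (n o * n o * D) * (n o * n o)⁻¹ := by rw [hC]; group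
    rw [h2, h1]; group
  have oAA : n o * Aα * (n o)⁻¹ = A' := un oA' (by
    have := R'.conj_mem ro (isr oA) mA
    rwa [rep_simple_sr] at this) mA' (conj_ne_one nA) nA'
  have oDC : n o * D * (n o)⁻¹ = C := hC.symm
  -- positive elements
  have Cpos : 0 ≤ ρ - sr o := by
    intro k
    rw [Pi.sub_apply]
    by_cases hk : k = o
    · subst hk
      rw [hP.polar.two, sr_self]; norm_num
    · rw [sr_ne hk, sub_zero]
      exact hP.polar.nonneg k
  have CB : C ∈ B cs h T X := X_le_B (isRoot_cs cs' cs h (isr oC)) Cpos mC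
  have AB : Aα ∈ B cs h T X := X_le_B (isRoot_sr cs h o) (sr_nonneg o) mA
  have A'B : A' ∉ B cs h T X := fun hh => nA' (eq_one_of_neg R mA' hh)
  have DA : D * Aα = Aα * D := (hB _ AB).symm
  have DC : D * C = C * D := (hB _ CB).symm
  -- relations
  have a2' := sq oA' mA' nA'
  have c2 := sq oC mC nC
  have d2 := sq oρ hDm hD1
  have al2 := sq oA mA nA
  have r1 : A' * C = C * A' := by
    have := congrArg (fun y => n o * y * (n o)⁻¹) DA
    simp only [cj2 oDC oAA, cj2 oAA oDC] at this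
    exact this.symm
  have hDneC : D ≠ C := by
    intro he
    have h1 : (gJ : Y) * D * (gJ : Y)⁻¹ = D := un oρ (by
      have := R'.conj_mem rJ (isr oρ) hDm
      rwa [a3] at this) hDm (conj_ne_one hD1) hD1
    have h2 : D = Aα := by
      rw [hAα, ← he, h1]
    have h3 : C = A' := by rw [← oDC, ← oAA, h2]
    exact A'B (h3 ▸ CB)
  have r2 : C * Aα * C = Aα * D := by
    have hne1 : ρ - sr o ≠ sr o := by
      intro he
      have h1 := congrArg (rep cs' h (cs'.simple o)) he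
      rw [map_sub, a1, rep_simple_sr] at h1
      have h2 := (hP.polar.nonneg : (0 : I → ℤ) ≤ ρ)
      have h3 : ρ = -sr o := by
        have e : ρ - sr o - -sr o = ρ := by abel
        rw [e] at h1
        exact h1
      have h4 := h2 o
      rw [h3, Pi.neg_apply, sr_self] at h4
      exact absurd h4 (by norm_num)
    have hne2 : ρ - sr o ≠ -sr o := by
      intro he
      have h1 : ρ = 0 := by
        have e : ρ = (ρ - sr o) + sr o := by abel
        rw [e, he]; abel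
      have h2 := hP.polar.two
      rw [h1, Pi.zero_apply] at h2
      norm_num at h2
    have h1 := R'.comm _ _ (isr oC) (isRoot_sr cs' h o) hne1 hne2 C mC Aα mA
    have h2 : Nodes.Reps.btw cs' h X (ρ - sr o) (sr o) ≤ X ρ := by
      unfold Nodes.Reps.btw
      refine iSup_le ?_
      rintro ⟨z, hz⟩
      exact le_of_eq (congrArg X (hP.nb2 z hz))
    have h3 : ⁅C, Aα⁆ ∈ X ρ := h2 h1
    have ic : C⁻¹ = C := inv_eq_of_mul_eq_one_left c2
    have ia : Aα⁻¹ = Aα := inv_eq_of_mul_eq_one_left al2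
    by_cases h4 : ⁅C, Aα⁆ = 1
    · exfalso
      have h5 : C * Aα = Aα * C := (commutatorElement_eq_one_iff_mul_comm).1 h4
      obtain ⟨a, ha, s, hs, b, hb, e⟩ := R.rk1 o A' mA' nA'
      have hca : ∀ x ∈ X (sr o), C * x = x * C := by
        intro x hx
        by_cases hx1 : x = 1
        · rw [hx1]; group
        · rw [un oA hx mA hx1 nA]; exact h5
      have h6 : n o = (a * s)⁻¹ * A' * b⁻¹ := by rw [e]; group
      have h7 : n o * C * (n o)⁻¹ = s⁻¹ * C * s := by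
        have h8 : b⁻¹ * C * b = C := by rw [mul_assoc, hca b hb]; group
        have h9 : a⁻¹ * C * a = C := by rw [mul_assoc, hca a ha]; group
        have h10 : A' * C * A'⁻¹ = C := by rw [r1]; group
        rw [h6]
        calc (a * s)⁻¹ * A' * b⁻¹ * C * ((a * s)⁻¹ * A' * b⁻¹)⁻¹ =
            s⁻¹ * (a⁻¹ * (A' * (b⁻¹ * C * b) * A'⁻¹) * a) * s := by group
          _ = s⁻¹ * C * s := by rw [h8, h10, h9]
      rw [oCD] at h7
      have h8 : s⁻¹ * C * s ∈ X (ρ - sr o) := by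
        have h9 := R'.tor _ (isr oC) s⁻¹ (inv_mem hs)
        rw [← h9]
        have := conj_mem_cj (g := s⁻¹).2 mC
        rwa [inv_inv] at this
      have h9 : s⁻¹ * C * s ≠ 1 := by rw [← h7]; exact hD1
      exact hDneC (h7.trans (un oC h8 mC h9 nC))
    · have h5 := un oρ h3 hDm h4 hD1
      rw [commutatorElement_def, ic, ia] at h5
      have h6 : C * Aα * C = D * Aα := by
        rw [← h5, mul_assoc (C * Aα * C) Aα Aα, al2, mul_one]
      rw [h6, DA]
  have r3 : A' * D * A' = D * C := by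
    have h1 := congrArg (fun y => n o * y * (n o)⁻¹) r2
    simp only [cj3 oCD oAA oCD, cj2 oAA oDC] at h1
    -- `D A' D = A' C`
    have e1 : A' * (D * A' * D) * D = A' * D * A' * (D * D) := by group
    calc A' * D * A' = A' * (D * A' * D) * D := by rw [e1, d2, mul_one]
      _ = (A' * A') * C * D := by rw [h1]; group
      _ = D * C := by rw [a2', one_mul, DC]
  have r6 : A' * Aα * A' = Aα * A' * Aα := by
    obtain ⟨a, ha, s, hs, b, hb, e⟩ := R.rk1 o A' mA' nA'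
    have hAs : ∀ x ∈ X (sr o), x = 1 ∨ x = Aα := by
      intro x hx
      by_cases hx1 : x = 1
      · exact Or.inl hx1
      · exact Or.inr (un oA hx mA hx1 nA)
    have hne : Aα ≠ A' := fun he => A'B (he ▸ AB)
    -- `k = s n_o = a⁻¹ A' b⁻¹` swaps
    have hk : s * n o = a⁻¹ * A' * b⁻¹ := by rw [e]; group
    have rk : Rp cs' R'.nsys (cs'.simple o) (s * n o) := by
      have := (rp_of_mem (cs := cs') (hN := R'.nsys) hs).mul ro
      rwa [one_mul] at this
    have k1 : (s * n o) * Aα * (s * n o)⁻¹ = A' := un oA' (by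
      have := R'.conj_mem rk (isr oA) mA
      rwa [rep_simple_sr] at this) mA' (conj_ne_one nA) nA'
    have k2 : (s * n o) * A' * (s * n o)⁻¹ = Aα := un oA (by
      have := R'.conj_mem rk (isr oA') mA'
      rwa [map_neg, rep_simple_sr, neg_neg] at this) mA (conj_ne_one nA') nA
    have ia : Aα⁻¹ = Aα := inv_eq_of_mul_eq_one_left al2
    have ia' : A'⁻¹ = A' := inv_eq_of_mul_eq_one_left a2'
    rw [hk] at k1 k2
    rcases hAs a ha with ea | ea <;> rcases hAs b hb with eb | eb <;> rw [ea, eb] at k1 k2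
    · exfalso
      rw [inv_one, one_mul, mul_one] at k2
      apply hne
      rw [← k2]; group
    · exfalso
      rw [inv_one, one_mul, ia] at k1
      apply hne
      have h1 : A' * Aα * Aα * (A' * Aα)⁻¹ = A' * Aα * A'⁻¹ := by group
      rw [h1] at k1
      have h2 : Aα = A'⁻¹ * (A' * Aα * A'⁻¹) * A' := by group
      rw [h2, k1]; group
    · exfalso
      rw [inv_one, mul_one, ia] at k2
      apply hne
      have h1 : Aα * A' * A' * (Aα * A')⁻¹ = Aα * A' * Aα⁻¹ := by group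
      rw [h1] at k2
      have h2 : A' = Aα⁻¹ * (Aα * A' * Aα⁻¹) * Aα := by group
      rw [h2, k2]; group
    · rw [ia] at k1
      have h1 : Aα * A' * Aα * Aα * (Aα * A' * Aα)⁻¹ = Aα * A' * Aα * A'⁻¹ * Aα⁻¹ := by group
      rw [h1, ia, ia'] at k1
      have e1 : Aα * (Aα * A' * Aα * A' * Aα) * Aα = (Aα * Aα) * (A' * Aα * A') * (Aα * Aα) := by group
      rw [k1, al2, one_mul, mul_one] at e1
      exact e1.symm
  refine ⟨Aα, C', D', ⟨a2', c2, sq oD' mD' nD', r1, r2, r3, ?_, ?_, r6, ?_, ?_, ?_, ?_, ?_, ?_⟩, CB, A'B, mA', ?_, ?_,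
    hD'⟩
  · have h1 := congrArg (fun y => (nw : Y) * y * (nw : Y)⁻¹) r2
    simp only [cj3 hA'.symm wA hA'.symm, cj2 wA hD'.symm] at h1
    exact h1
  · have h1 := congrArg (fun y => (nw : Y) * y * (nw : Y)⁻¹) r3
    simp only [cj3 wA' hD'.symm wA', cj2 hD'.symm hA'.symm] at h1
    exact h1
  · have h1 := congrArg (fun y => (nw : Y) * y * (nw : Y)⁻¹) r6
    simp only [cj3 wA' wA wA', cj3 wA wA' wA] at h1
    exact h1
  · have h1 := congrArg (fun y => (nw : Y) * y * (nw : Y)⁻¹) DA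
    simp only [cj2 hD'.symm wA, cj2 wA hD'.symm] at h1
    exact h1
  · have h1 := congrArg (fun y => (nw : Y) * y * (nw : Y)⁻¹) DC
    simp only [cj2 hD'.symm hA'.symm, cj2 hA'.symm hD'.symm] at h1
    exact h1
  · rw [hA']; group
  · rw [← wA']; group
  · rw [← oAA]; group
  · rw [hAα, hC]; group
  · rw [hC', hA', hC]; group

section Final

variable (S : Split (R.bnPair hgen) p (Sup X (Pos cs h))) (t : Mv (Bl R hgen cs' hcs) Y) (hφ : ∀ v, t.φ v = v)
  (hmax : ∀ y, cs'.length ((Bl R hgen cs' hcs).δ y (t.θ y)) ≤ cs'.length w)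

include S hP hw hE hφ hmax in
/-- **The contradiction**, at the base chamber. -/
theorem polar_false (h1 : t.θ (ch R hgen 1) = ch R hgen (nw : Y)) (h3 : ∀ x, t.τ (t.τ (t.τ x)) = x) : False := by
  have hI : Finite I := inferInstance
  have hW : Finite (WP (R.bnPair hgen)) := inferInstance
  have hC : Cox cs' := inferInstance
  let Sy := FixBN.OfBN.sys (eS R hgen) cs' hcs S
  have hiso : ∀ (g : Y) (x y : Y ⧸ (R.bnPair hgen).B), (Bl R hgen cs' hcs).δ (g • x) (g • y) =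
    (Bl R hgen cs' hcs).δ x y := fun g x y => Sy.iso g x y
  obtain ⟨Aα, C', D', hr, CB, A'B, mA', eA, eC', eD'⟩ := rels (hcs := hcs) hP hw hE
  obtain ⟨C, hCdef⟩ : ∃ C, C = Cel o n D := ⟨_, rfl⟩
  rw [← hCdef] at hr CB A'B mA'
  obtain ⟨A', hA'def⟩ : ∃ A', A' = (nw : Y) * C * (nw : Y)⁻¹ := ⟨_, rfl⟩
  rw [← hA'def] at hr A'B mA'
  unfold Cel at hCdef
  have AB : Aα ∈ B cs h T X := by
    have h2 : (n o)⁻¹ * A' * n o ∈ X (sr o) := by
      have := R.conj_mem' (rp_simple cs R.nsys o) (isRoot_sr cs h o).neg mA'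
      rwa [inv_simple, map_neg, rep_simple_sr, neg_neg] at this
    rw [hr.oA'] at h2
    exact X_le_B (isRoot_sr cs h o) (sr_nonneg o) h2
  -- the panels
  have hno : (QuotientGroup.mk (nn R hgen o) : WP (R.bnPair hgen)) = cs'.simple o := mk_nn R hgen cs' hcs o
  have q1 : (Bl R hgen cs' hcs).δ (ch R hgen (n o)) (ch R hgen 1) = cs'.simple o := by
    rw [← cs'.inv_simple, ← hno, ← QuotientGroup.mk_inv]
    exact δ_ch R hgen cs' hcs (by rw [mul_one]; rfl)
  have q2 : (Bl R hgen cs' hcs).δ (ch R hgen (n o)) (ch R hgen A') = cs'.simple o := by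
    have e1 : A' • ch R hgen (n o) = ch R hgen (n o) := by
      rw [smul_ch, eq_comm, ch_eq, ← mul_assoc, hr.oA']
      exact AB
    have e2 : A' • ch R hgen 1 = ch R hgen A' := by rw [smul_ch, mul_one]
    rw [← q1, ← e2]
    conv_lhs => rw [← e1]
    exact hiso _ _ _
  have q3 : (Bl R hgen cs' hcs).δ (ch R hgen 1) (ch R hgen A') = cs'.simple o := by
    rcases (Bl R hgen cs' hcs).step (ch R hgen 1) (ch R hgen (n o)) (ch R hgen A') _ q2 with h4 | h4
    · exfalso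
      rw [(Bl R hgen cs' hcs).δ_symm_simple q1, cs'.simple_mul_simple_self] at h4
      have h5 := (Bl R hgen cs' hcs).eq_of_δ_eq_one h4
      rw [ch_eq, inv_one, one_mul] at h5
      exact A'B h5
    · rw [h4, (Bl R hgen cs' hcs).δ_symm_simple q1]
  have q4 : ch R hgen A' ≠ ch R hgen (n o) := by
    intro he
    rw [he, (Bl R hgen cs' hcs).δ_self] at q2
    have := cs'.length_simple o
    rw [← q2, cs'.length_one] at this
    omega
  have q5 : ∀ z, (Bl R hgen cs' hcs).δ (ch R hgen (nw : Y)) z = cs'.simple o → z ≠ (nw : Y) • ch R hgen (n o) →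
      z = ch R hgen ((nw : Y) * (E * n o)) := by
    intro z hz hz'
    have h4 : (Bl R hgen cs' hcs).δ (QuotientGroup.mk 1) ((nw : Y)⁻¹ • z) = cs'.simple o := by
      rw [← hz, ← hiso (nw : Y) (QuotientGroup.mk 1), smul_inv_smul]
      congr 1
      exact congrArg _ (mul_one _)
    obtain ⟨x, hx, hxz⟩ := pan_eq R hgen cs' hcs o h4
    have h5 : z = (nw : Y) • ch R hgen (x * n o) := by
      show z = (nw : Y) • (QuotientGroup.mk (x * n o) : Y ⧸ (R.bnPair hgen).B)
      rw [← hxz, smul_inv_smul]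
    rcases hE.E_uniq x hx with h6 | h6
    · exact absurd (by rw [h5, h6, one_mul]) hz'
    · rw [h5, h6]; rfl
  have q6 : t.θ (ch R hgen (n o)) = (nw : Y) • ch R hgen (n o) := by
    have := proj_apt hw hE t hφ hmax 1 (by
      rw [Subgroup.coe_one, one_mul]
      exact h1)
    rw [Subgroup.coe_one, one_mul, one_mul] at this
    exact this
  have q7 : t.θ (ch R hgen A') = (nw : Y) • ch R hgen A' := by
    rw [q5 (t.θ (ch R hgen A')) ?_ ?_, ← q5 ((nw : Y) • ch R hgen A') ?_ ?_]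
    · have e2 : ch R hgen (nw : Y) = (nw : Y) • ch R hgen 1 := by rw [smul_ch, mul_one]
      rw [e2, hiso]
      exact q3
    · intro he
      exact q4 (MulAction.injective (nw : Y) he)
    · rw [← h1, t.δ_θ, hφ]
      exact q3
    · rw [← q6]
      exact fun he => q4 (t.θ_injective he)
  -- the conjugate automorphism
  obtain ⟨t₁, ht₁, ht₁', hφ₁, -⟩ := exists_conj_mv S t (A' * C) (A' * C)
  have b1 : t₁.θ (ch R hgen 1) = ch R hgen (nw : Y) := by
    rw [ht₁', smul_ch, mul_one, ch_mul R hgen CB, q7, smul_ch, smul_ch, ch_eq]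
    have e1 : ((A' * C)⁻¹ * ((nw : Y) * A'))⁻¹ * (nw : Y) = A'⁻¹ * (((nw : Y)⁻¹ * A' * nw) * ((nw : Y)⁻¹ * C * nw)) := by
      group
    rw [e1, hr.wA', hr.wC, ← hr.r1, inv_mul_cancel_left]
    exact CB
  have b2 : ∀ y, cs'.length ((Bl R hgen cs' hcs).δ y (t₁.θ y)) ≤ cs'.length w := by
    intro y
    rw [ht₁', ← hiso (A' * C), smul_inv_smul]
    exact hmax _
  have f := facts S hP hw hE t hφ hmax h1
  have f₁ := facts S hP hw hE t₁ (fun v => by rw [hφ₁]; exact hφ v) b2 b1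
  have tD : t.τ D = D' := by rw [eD']; exact f.1
  have tC : t.τ C = A' := by
    rw [hA'def, hCdef, f.2.1]; group
  have tA : t.τ Aα = C' := by
    rw [eC', eA]; exact f.2.2
  have tg : t.τ (A' * C * Aα * (A' * C)⁻¹) = A' * C * C' * (A' * C)⁻¹ := by
    have h4 := f₁.2.2
    rw [← eA, ← eC', ht₁] at h4
    rw [← h4]; group
  have h5 := eq_of_rel t.τ h3 hr.a2 hr.c2 hr.d2' hr.r1 hr.r2 hr.r3 hr.r4 hr.r5 hr.r6 hr.r7 hr.r8 hr.r9 tD tC tA tg
  exact A'B (h5 ▸ CB)

end Final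

end Cfsg.Agent.H885.Dsp
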